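import Mathlib
import Cfsg.Agent.Lib.Helper18.SLMDefs

/-! Piece SUBWT of project SLM (helper18, S2332), delivered by helper68: weight spaces of the
restriction of a representation to an invariant submodule. -/

set_option autoImplicit false
set_option linter.unusedSectionVars false

namespace Cfsg.Agent.Lib.Helper18.SLM

open Matrix

universe u

variable {F : Type u} [Field F] [Fintype F]

-- piece SUBWT
theorem subRep_wt_mem {W : Type*} [AddCommGroup W] [Module ℂ W] (ψ : AddChar F ℂ) {k : ℕ}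
    (σ : Representation ℂ (Matrix.SpecialLinearGroup (Fin (k + 1)) F) W) (C : Submodule ℂ W)
    (hC : ∀ g, ∀ v ∈ C, σ g v ∈ C) (l : Fin k → F) (v : ↥C) :
    v ∈ wt ψ (subRep σ C hC) l ↔ (v : W) ∈ wt ψ σ l := by
  rw [mem_wt, mem_wt]
  refine forall_congr' fun u => ?_
  rw [Subtype.ext_iff, subRep_apply]
  rfl

theorem subRep_wt_finrank_le {W : Type*} [AddCommGroup W] [Module ℂ W] [FiniteDimensional ℂ W]
    (ψ : AddChar F ℂ) {k : ℕ}
    (σ : Representation ℂ (Matrix.SpecialLinearGroup (Fin (k + 1)) F) W) (C : Submodule ℂ W)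
    (hC : ∀ g, ∀ v ∈ C, σ g v ∈ C) (l : Fin k → F) :
    Module.finrank ℂ (wt ψ (subRep σ C hC) l) ≤ Module.finrank ℂ (wt ψ σ l) := by
  obtain ⟨φ, hφ⟩ : ∃ φ : ↥(wt ψ (subRep σ C hC) l) →ₗ[ℂ] ↥(wt ψ σ l),
      ∀ v, ((φ v : ↥(wt ψ σ l)) : W) = ((v : ↥C) : W) :=
    ⟨{ toFun := fun v => ⟨((v : ↥C) : W), (subRep_wt_mem ψ σ C hC l v.1).1 v.2⟩
       map_add' := fun x y => rfl
       map_smul' := fun c x => rfl }, fun v => rfl⟩
  apply LinearMap.finrank_le_finrank_of_injective (f := φ)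
  intro x y hxy
  apply Subtype.ext
  apply Subtype.ext
  rw [← hφ x, ← hφ y, hxy]

theorem subRep_EP {W : Type*} [AddCommGroup W] [Module ℂ W] (ψ : AddChar F ℂ) {k : ℕ}
    (σ : Representation ℂ (Matrix.SpecialLinearGroup (Fin (k + 1)) F) W) (C : Submodule ℂ W)
    (hC : ∀ g, ∀ v ∈ C, σ g v ∈ C) (hE : EP ψ σ) : EP ψ (subRep σ C hC) := by
  intro l hl g hg hgl v hv
  apply Subtype.ext
  rw [subRep_apply]
  exact hE l hl g hg hgl (v : W) ((subRep_wt_mem ψ σ C hC l v).1 hv)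

end Cfsg.Agent.Lib.Helper18.SLM
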