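import Mathlib
import Cfsg.Agent.Lib.Helper18.LSDefs
import Cfsg.Agent.Lib.Helper18.WRDefs

/-!
Project WR (S2347, architect helper18), piece FINRANKM (helper68): the `(-1)`-eigenspace of an
involution of trace 1 on a space of dimension `2b+1` has dimension `b`.
-/

set_option autoImplicit false

namespace Cfsg.Agent.Lib.Helper18.WR

open Matrix

universe u

variable {F : Type u} [Field F] {n : ℕ}

theorem finrank_minus {E : Type*} [AddCommGroup E] [Module ℂ E] [FiniteDimensional ℂ E]
    (P : Module.End ℂ E) (hPP : P * P = 1) (htrP : LinearMap.trace ℂ E P = 1) (b : ℕ)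
    (hb : Module.finrank ℂ E = 2 * b + 1) :
    Module.finrank ℂ (LinearMap.ker (P + 1)) = b := by
  have hPPx : ∀ x : E, P (P x) = x := fun x => by
    have h := congrArg (fun f : Module.End ℂ E => f x) hPP
    simpa using h
  have hproj : LinearMap.IsProj (LinearMap.ker (P + 1)) ((1 / 2 : ℂ) • (1 - P)) := by
    constructor
    · intro x
      rw [LinearMap.mem_ker]
      simp only [LinearMap.smul_apply, LinearMap.sub_apply, Module.End.one_apply,
        LinearMap.add_apply, map_smul, map_sub, hPPx]
      rw [add_comm (P x) x, sub_self, smul_zero]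
    · intro x hx
      rw [LinearMap.mem_ker] at hx
      simp only [LinearMap.add_apply, Module.End.one_apply] at hx
      have hPx : P x = -x := eq_neg_of_add_eq_zero_left hx
      simp only [LinearMap.smul_apply, LinearMap.sub_apply, Module.End.one_apply, hPx,
        sub_neg_eq_add]
      rw [← two_smul ℂ x, smul_smul]
      norm_num
  have htr := hproj.trace
  have h1 : LinearMap.trace ℂ E ((1 / 2 : ℂ) • (1 - P)) = (b : ℂ) := by
    rw [map_smul, map_sub, LinearMap.trace_one, htrP, hb]
    push_cast
    simp only [smul_eq_mul]
    ring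
  rw [h1] at htr
  exact (Nat.cast_injective htr).symm

end Cfsg.Agent.Lib.Helper18.WR
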