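import Cfsg.Agent.Lib.Helper3.BG12Defs

set_option autoImplicit false

open Cfsg Cfsg.Agent.Lib.Helper32 Cfsg.Agent.Lib.Helper32.BG10 Cfsg.Agent.Lib.Helper3.BG12

namespace Cfsg.Agent.Lib.Helper68.BG12

universe u

variable {G : Type u} [Group G] [Finite G]

/-- B&G 12.13 piece P13N: the normalizer of a nilpotent subgroup normalizes its Sylow subgroups. -/
theorem normalizer_le_of_nilpotent {p : ℕ} [Fact p.Prime] {N R : Subgroup G}
    (hN : Group.IsNilpotent ↥N) (hR : R ∈ sylSet p N) :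
    Subgroup.normalizer (N : Set G) ≤ Subgroup.normalizer (R : Set G) := by
  intro g hg
  have h1 : cj g R ∈ sylSet p N := cj_mem_sylSet hg hR
  obtain ⟨n, hn, hnR⟩ := sylSet_conj hR h1
  obtain ⟨S, hS⟩ := exists_sylow_of_mem_sylSet hR
  have hSn : (S : Subgroup ↥N).Normal :=
    Sylow.normal_of_normalizerCondition normalizerCondition_of_isNilpotent S
  have key : ∀ m ∈ N, ∀ x ∈ R, m * x * m⁻¹ ∈ R := by
    intro m hm x hx
    rw [← hS] at hx ⊢
    obtain ⟨y, hy, rfl⟩ := hx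
    exact ⟨⟨m, hm⟩ * y * ⟨m, hm⟩⁻¹, hSn.conj_mem y hy ⟨m, hm⟩, rfl⟩
  have h2 : cj n R = R := by
    rw [cj_eq_self_iff, Subgroup.mem_normalizer_iff]
    intro x
    constructor
    · exact key n hn x
    · intro hx
      have := key n⁻¹ (N.inv_mem hn) _ hx
      have e : n⁻¹ * (n * x * n⁻¹) * n⁻¹⁻¹ = x := by group
      rwa [e] at this
  rw [← cj_eq_self_iff, ← hnR, h2]

end Cfsg.Agent.Lib.Helper68.BG12
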