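import Cfsg.Agent.Lib.Helper3.BG12Defs

set_option autoImplicit false
set_option maxHeartbeats 400000

open Cfsg Cfsg.Agent.Lib.Helper32 Cfsg.Agent.Lib.Helper32.BG10 Cfsg.Agent.Lib.Helper3.BG12

namespace Cfsg.Agent.Lib.Helper68.BG12

open scoped commutatorElement

universe u

variable {G : Type u} [Group G] [Finite G]

/-- B&G 12.17 piece P17B: a solvable normal subgroup `N` of `M` with complement `E` and
`N ≤ M'` satisfies `[N, E] = N`. -/
theorem comm_compl_eq {N E M : Subgroup G} [Group.IsSolvable ↥N] (hE : IsComplIn E N M)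
    (hNn : M ≤ Subgroup.normalizer (N : Set G)) (hNM : N ≤ ⁅M, M⁆) : ⁅N, E⁆ = N := by
  obtain ⟨hEM, hNMle, hEN, hdec⟩ := hE
  -- conjugation by elements of `M` preserves `N`
  have hNc : ∀ m ∈ M, N.map (MulAut.conj m).toMonoidHom ≤ N := by
    intro m hm
    rintro _ ⟨x, hx, rfl⟩
    exact (Subgroup.mem_normalizer_iff.mp (hNn hm) x).mp hx
  have hLN : ⁅N, E⁆ ≤ N := by
    rw [Subgroup.commutator_le]
    intro n hn e he
    have h1 : e * n⁻¹ * e⁻¹ ∈ N := (Subgroup.mem_normalizer_iff.mp (hNn (hEM he)) n⁻¹).mp (N.inv_mem hn)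
    have e1 : ⁅n, e⁆ = n * (e * n⁻¹ * e⁻¹) := by rw [commutatorElement_def]; group
    rw [e1]
    exact N.mul_mem hn h1
  -- `L = [N, E]` is normalized by `E`
  have hLE : ∀ e ∈ E, ∀ x ∈ ⁅N, E⁆, e * x * e⁻¹ ∈ ⁅N, E⁆ := by
    intro e he x hx
    have h1 : (⁅N, E⁆).map (MulAut.conj e).toMonoidHom ≤ ⁅N, E⁆ := by
      rw [Subgroup.map_commutator]
      refine Subgroup.commutator_mono (hNc e (hEM he)) ?_
      rintro _ ⟨y, hy, rfl⟩
      exact E.mul_mem (E.mul_mem he hy) (E.inv_mem he)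
    exact h1 ⟨x, hx, rfl⟩
  -- `L` is normalized by `N`
  have hLNc : ∀ n ∈ N, ∀ x ∈ ⁅N, E⁆, n * x * n⁻¹ ∈ ⁅N, E⁆ := by
    intro n hn x hx
    have hx' : x ∈ Subgroup.closure {g | ∃ g₁ ∈ N, ∃ g₂ ∈ E, ⁅g₁, g₂⁆ = g} := hx
    refine Subgroup.closure_induction (p := fun x _ => n * x * n⁻¹ ∈ ⁅N, E⁆) ?_ ?_ ?_ ?_ hx'
    · rintro _ ⟨a, ha, e, he, rfl⟩
      have e1 : n * ⁅a, e⁆ * n⁻¹ = ⁅n * a, e⁆ * ⁅n, e⁆⁻¹ := by
        simp only [commutatorElement_def]; group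
      rw [e1]
      exact Subgroup.mul_mem _ (Subgroup.commutator_mem_commutator (N.mul_mem hn ha) he)
        (Subgroup.inv_mem _ (Subgroup.commutator_mem_commutator hn he))
    · simp
    · intro a b _ _ iha ihb
      have e1 : n * (a * b) * n⁻¹ = (n * a * n⁻¹) * (n * b * n⁻¹) := by group
      rw [e1]
      exact Subgroup.mul_mem _ iha ihb
    · intro a _ iha
      have e1 : n * a⁻¹ * n⁻¹ = (n * a * n⁻¹)⁻¹ := by group
      rw [e1]
      exact Subgroup.inv_mem _ iha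
  -- hence by `M`
  have hLM : ∀ m ∈ M, ∀ x ∈ ⁅N, E⁆, m * x * m⁻¹ ∈ ⁅N, E⁆ := by
    intro m hm x hx
    obtain ⟨a, ha, b, hb, rfl⟩ := hdec m hm
    have e1 : a * b * x * (a * b)⁻¹ = a * (b * x * b⁻¹) * a⁻¹ := by group
    rw [e1]
    exact hLE a ha _ (hLNc b hb x hx)
  obtain ⟨D, hD⟩ : ∃ D : Subgroup G, D = ⁅N, N⁆ ⊔ ⁅N, E⁆ := ⟨_, rfl⟩
  have hDN : D ≤ N := by
    rw [hD]
    refine sup_le ?_ hLN
    rw [Subgroup.commutator_le]
    intro a ha b hb
    rw [commutatorElement_def]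
    exact N.mul_mem (N.mul_mem (N.mul_mem ha hb) (N.inv_mem ha)) (N.inv_mem hb)
  have hLD : ⁅N, E⁆ ≤ D := by rw [hD]; exact le_sup_right
  have hND : ⁅N, N⁆ ≤ D := by rw [hD]; exact le_sup_left
  have hDM : ∀ m ∈ M, ∀ x ∈ D, m * x * m⁻¹ ∈ D := by
    intro m hm x hx
    have h1 : D.map (MulAut.conj m).toMonoidHom ≤ D := by
      rw [hD, Subgroup.map_sup]
      refine sup_le_sup ?_ ?_
      · rw [Subgroup.map_commutator]
        exact Subgroup.commutator_mono (hNc m hm) (hNc m hm)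
      · rintro _ ⟨y, hy, rfl⟩
        exact hLM m hm y hy
    exact h1 ⟨x, hx, rfl⟩
  have hEnD : E ≤ Subgroup.normalizer (D : Set G) := by
    intro e he
    rw [Subgroup.mem_normalizer_iff]
    intro x
    constructor
    · exact hDM e (hEM he) x
    · intro hx
      have := hDM e⁻¹ (M.inv_mem (hEM he)) _ hx
      have e1 : e⁻¹ * (e * x * e⁻¹) * e⁻¹⁻¹ = x := by group
      rwa [e1] at this
  obtain ⟨K, hK⟩ : ∃ K : Subgroup G, K = E ⊔ D := ⟨_, rfl⟩
  have hEK : E ≤ K := by rw [hK]; exact le_sup_left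
  have hDK : D ≤ K := by rw [hK]; exact le_sup_right
  -- `K ⊓ N ≤ D`
  have hKN : ∀ x ∈ K, x ∈ N → x ∈ D := by
    intro x hxK hxN
    have h1 : x ∈ ((E ⊔ D : Subgroup G) : Set G) := by rw [← hK]; exact hxK
    rw [Subgroup.coe_mul_of_left_le_normalizer_right E D hEnD] at h1
    obtain ⟨e, he, d, hd, hed⟩ := h1
    have hed' : e * d = x := hed
    subst hed'
    have he' : e ∈ N := by
      have := N.mul_mem hxN (N.inv_mem (hDN hd))
      rwa [mul_inv_cancel_right] at this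
    have he1 : e ∈ E ⊓ N := ⟨he, he'⟩
    rw [hEN, Subgroup.mem_bot] at he1
    rw [he1, one_mul]
    exact hd
  -- `K` is normalized by `M`
  have hKM : ∀ m ∈ M, ∀ x ∈ K, m * x * m⁻¹ ∈ K := by
    intro m hm x hx
    have h1 : K.map (MulAut.conj m).toMonoidHom ≤ K := by
      rw [hK, Subgroup.map_sup, ← hK]
      refine sup_le ?_ ?_
      · rintro _ ⟨e, he, rfl⟩
        obtain ⟨a, ha, b, hb, rfl⟩ := hdec m hm
        show a * b * e * (a * b)⁻¹ ∈ K
        have e1 : a * b * e * (a * b)⁻¹ = a * (⁅b, e⁆ * e) * a⁻¹ := by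
          rw [commutatorElement_def]; group
        rw [e1]
        refine K.mul_mem (K.mul_mem (hEK ha) (K.mul_mem ?_ (hEK he))) (K.inv_mem (hEK ha))
        exact hDK (hLD (Subgroup.commutator_mem_commutator hb he))
      · rintro _ ⟨d, hd, rfl⟩
        exact hDK (hDM m hm d hd)
    exact h1 ⟨x, hx, rfl⟩
  -- commutators `[n, m]` lie in `D`
  have hnm : ∀ n ∈ N, ∀ m ∈ M, ⁅n, m⁆ ∈ D := by
    intro n hn m hm
    obtain ⟨a, ha, b, hb, rfl⟩ := hdec m hm
    have e1 : ⁅n, a * b⁆ = ⁅n, a⁆ * (a * ⁅n, b⁆ * a⁻¹) := by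
      simp only [commutatorElement_def]; group
    rw [e1]
    exact D.mul_mem (hLD (Subgroup.commutator_mem_commutator hn ha))
      (hDM a (hEM ha) _ (hND (Subgroup.commutator_mem_commutator hn hb)))
  have hMK : ⁅M, M⁆ ≤ K := by
    rw [Subgroup.commutator_le]
    intro m₁ hm₁ m₂ hm₂
    obtain ⟨a, ha, b, hb, rfl⟩ := hdec m₁ hm₁
    have e1 : ⁅a * b, m₂⁆ = (a * ⁅b, m₂⁆ * a⁻¹) * (a * (m₂ * a⁻¹ * m₂⁻¹)) := by
      simp only [commutatorElement_def]; group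
    rw [e1]
    refine K.mul_mem (K.mul_mem (K.mul_mem (hEK ha) (hDK (hnm b hb m₂ hm₂))) (K.inv_mem (hEK ha)))
      (K.mul_mem (hEK ha) (hKM m₂ hm₂ _ (K.inv_mem (hEK ha))))
  have hclaim : N ≤ D := fun x hx => hKN x (hMK (hNM hx)) hx
  -- finish: `N / L` is perfect and solvable
  refine le_antisymm hLN ?_
  haveI hnorm : ((⁅N, E⁆).subgroupOf N).Normal := by
    refine ⟨fun x hx g => ?_⟩
    rw [Subgroup.mem_subgroupOf] at hx ⊢
    exact hLNc g g.2 x hx
  have hperf : commutator (↥N ⧸ (⁅N, E⁆).subgroupOf N) = ⊤ := by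
    obtain ⟨P, hP⟩ : ∃ P : Subgroup ↥N, P = (commutator (↥N ⧸ (⁅N, E⁆).subgroupOf N)).comap
        (QuotientGroup.mk' ((⁅N, E⁆).subgroupOf N)) := ⟨_, rfl⟩
    have h1 : ⁅N, E⁆ ≤ P.map N.subtype := by
      intro l hl
      have hmem : (⟨l, hLN hl⟩ : ↥N) ∈ P := by
        rw [hP, Subgroup.mem_comap]
        have : QuotientGroup.mk' ((⁅N, E⁆).subgroupOf N) ⟨l, hLN hl⟩ = 1 := by
          rw [QuotientGroup.mk'_apply, QuotientGroup.eq_one_iff]
          exact Subgroup.mem_subgroupOf.mpr hl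
        rw [this]
        exact Subgroup.one_mem _
      exact ⟨_, hmem, rfl⟩
    have h2 : ⁅N, N⁆ ≤ P.map N.subtype := by
      rw [Subgroup.commutator_le]
      intro a ha b hb
      have hmem : ⁅(⟨a, ha⟩ : ↥N), ⟨b, hb⟩⁆ ∈ P := by
        rw [hP, Subgroup.mem_comap, map_commutatorElement]
        exact Subgroup.commutator_mem_commutator (Subgroup.mem_top _) (Subgroup.mem_top _)
      exact ⟨_, hmem, rfl⟩
    have h3 : D ≤ P.map N.subtype := by rw [hD]; exact sup_le h2 h1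
    rw [eq_top_iff]
    intro q _
    obtain ⟨x, rfl⟩ := QuotientGroup.mk'_surjective _ q
    obtain ⟨y, hy, hyx⟩ := h3 (hclaim x.2)
    have hyx' : y = x := Subtype.ext hyx
    have hy' : y ∈ P := hy
    rw [hP, hyx', Subgroup.mem_comap] at hy'
    exact hy'
  by_cases hnt : Nontrivial (↥N ⧸ (⁅N, E⁆).subgroupOf N)
  · have := Group.IsSolvable.commutator_lt_top_of_nontrivial (↥N ⧸ (⁅N, E⁆).subgroupOf N)
    rw [hperf] at this
    exact absurd this (lt_irrefl _)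
  · rw [not_nontrivial_iff_subsingleton] at hnt
    intro x hx
    have h1 : (QuotientGroup.mk (⟨x, hx⟩ : ↥N) : ↥N ⧸ (⁅N, E⁆).subgroupOf N) = 1 :=
      Subsingleton.elim _ _
    rw [QuotientGroup.eq_one_iff] at h1
    exact Subgroup.mem_subgroupOf.mp h1

end Cfsg.Agent.Lib.Helper68.BG12
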