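import Mathlib
import Cfsg.Agent.Lib.Helper44.SURegBase

/-! PAR (job board piece for S2282, poster helper44): existence of the parameters `a b c ρ`
in a field with `q ^ 2` elements. -/

set_option maxHeartbeats 400000
set_option autoImplicit false

namespace Cfsg.Agent.Lib.Helper68.SUReg

open Matrix Cfsg.Agent.Lib.Helper7 Cfsg.Agent.Lib.Helper18 Cfsg.Agent.Lib.Helper93
open Cfsg.Agent.Lib.Helper44.SUReg

variable {F : Type*} [Field F] [Fintype F] {q n m : ℕ}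

/-- A generator `σ` of the multiplicative group of the fixed field of `x ↦ x ^ q`. -/
theorem par_sigma (hF : Fintype.card F = q ^ 2) :
    ∃ σ : F, σ ≠ 0 ∧ σ ^ q = σ ∧ ∀ y : F, y ≠ 0 → y ^ q = y → ∃ k : ℕ, y = σ ^ k := by
  obtain ⟨g, hg⟩ := IsCyclic.exists_monoid_generator (α := Fˣ)
  refine ⟨(g : F) ^ (q + 1), pow_ne_zero _ g.ne_zero, ?_, ?_⟩
  · rw [← pow_mul, mul_comm, pow_mul, pow_succ, herm_pow_pow hF, pow_succ, mul_comm]
  · intro y hy0 hy
    obtain ⟨t, ht0, ht⟩ := herm_norm_surj hF y hy0 hy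
    obtain ⟨k, hk⟩ := (Submonoid.mem_powers_iff _ _).mp (hg (Units.mk0 t ht0))
    refine ⟨k, ?_⟩
    have hgk : (g : F) ^ k = t := by
      have := congrArg Units.val hk
      simpa using this
    rw [← ht, ← hgk]
    ring

theorem par_even (hF : Fintype.card F = q ^ 2) (h2 : (2 : F) = 0) :
    ∃ a b c ρ : F, a ≠ 0 ∧ b + b ^ q + a ^ (q + 1) = 0 ∧ c ≠ 0 ∧ c + c ^ q = 0 ∧
      ρ = (b ^ (q + 1)) ^ 2 * a ^ (q + 1) * c ^ 3 ∧
      ∀ A : AddSubgroup F, c ∈ A → (∀ x ∈ A, ρ * x ∈ A) → ∀ x : F, x + x ^ q = 0 → x ∈ A := by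
  obtain ⟨σ, hσ0, hσq, hσ⟩ := par_sigma hF
  obtain ⟨l, hl⟩ := exists_trace_one hF
  have hl0 : l ≠ 0 := by
    rintro rfl
    rw [zero_pow (herm_q_ne_zero hF), add_zero] at hl
    exact zero_ne_one hl
  obtain ⟨ν, hν⟩ : ∃ ν : F, ν = l ^ (q + 1) := ⟨_, rfl⟩
  have hν0 : ν ≠ 0 := by rw [hν]; exact pow_ne_zero _ hl0
  have hνq : ν ^ q = ν := by
    rw [hν, ← pow_mul, mul_comm, pow_mul, pow_succ, herm_pow_pow hF, pow_succ, mul_comm]
  obtain ⟨t, ht⟩ : ∃ t : F, t = ν ^ 2 / σ := ⟨_, rfl⟩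
  have ht0 : t ≠ 0 := by rw [ht]; exact div_ne_zero (pow_ne_zero _ hν0) hσ0
  have htq : t ^ q = t := by
    rw [ht, div_pow, ← pow_mul, mul_comm 2 q, pow_mul, hνq, hσq]
  obtain ⟨a, ha⟩ := exists_norm_eq hF t htq
  have ha0 : a ≠ 0 := by
    rintro rfl
    rw [zero_pow (by omega)] at ha
    exact ht0 ha.symm
  have h2x : ∀ x : F, x + x = 0 := fun x => by rw [← two_mul, h2, zero_mul]
  have hcq : ((t⁻¹) ^ 2) ^ q = (t⁻¹) ^ 2 := by
    rw [← pow_mul, mul_comm 2 q, pow_mul, inv_pow, htq]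
  refine ⟨a, t * l, (t⁻¹) ^ 2, σ, ha0, ?_, pow_ne_zero _ (inv_ne_zero ht0), ?_, ?_, ?_⟩
  · rw [ha, mul_pow, htq, ← mul_add, hl, mul_one]
    exact h2x t
  · rw [hcq]
    exact h2x _
  · rw [ha, mul_pow, ← hν, pow_succ t q, htq]
    have hσt : σ = ν ^ 2 / t := by
      rw [ht]
      field_simp
    rw [hσt]
    field_simp
  · intro A hc hA x hx
    have hxq : x ^ q = x := by
      have h := h2x x
      linear_combination hx - h
    by_cases hx0 : x = 0
    · rw [hx0]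
      exact A.zero_mem
    have hy0 : x / (t⁻¹) ^ 2 ≠ 0 := div_ne_zero hx0 (pow_ne_zero _ (inv_ne_zero ht0))
    have hyq : (x / (t⁻¹) ^ 2) ^ q = x / (t⁻¹) ^ 2 := by rw [div_pow, hxq, hcq]
    obtain ⟨k, hk⟩ := hσ _ hy0 hyq
    have hpow : ∀ k : ℕ, σ ^ k * (t⁻¹) ^ 2 ∈ A := by
      intro k
      induction k with
      | zero => simpa using hc
      | succ k ih =>
        rw [pow_succ, mul_comm (σ ^ k) σ, mul_assoc]
        exact hA _ ih
    have hx' : x = σ ^ k * (t⁻¹) ^ 2 := by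
      rw [← hk]
      field_simp
    rw [hx']
    exact hpow k

theorem par_odd (hF : Fintype.card F = q ^ 2) (h2 : (2 : F) ≠ 0) :
    ∃ a b c ρ : F, a ≠ 0 ∧ b + b ^ q + a ^ (q + 1) = 0 ∧ c ≠ 0 ∧ c + c ^ q = 0 ∧
      ρ = 2 * (b ^ (q + 1)) ^ 2 * c ^ 4 ∧
      ∀ A : AddSubgroup F, c ∈ A → (∀ x ∈ A, ρ * x ∈ A) → ∀ x : F, x + x ^ q = 0 → x ∈ A := by
  obtain ⟨σ, hσ0, hσq, hσ⟩ := par_sigma hF
  obtain ⟨c, hc0, hcq⟩ := exists_trace_zero_ne hF
  have hc2q : (c ^ 2) ^ q = c ^ 2 := by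
    rw [← pow_mul, mul_comm 2 q, pow_mul, hcq]
    ring
  have hy0 : σ / c ^ 2 ≠ 0 := div_ne_zero hσ0 (pow_ne_zero _ hc0)
  have hyq : (σ / c ^ 2) ^ q = σ / c ^ 2 := by rw [div_pow, hσq, hc2q]
  have hb : ∃ b : F, b ^ (q + 1) = σ / c ^ 2 ∧ b + b ^ q ≠ 0 := by
    obtain ⟨b₀, hb₀⟩ := exists_norm_eq hF _ hyq
    have hb₀0 : b₀ ≠ 0 := by
      rintro rfl
      rw [zero_pow (by omega)] at hb₀
      exact hy0 hb₀.symm
    by_cases htr : b₀ + b₀ ^ q = 0
    · have h1c : 1 - c ≠ 0 := by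
        intro h
        have hc1 : c = 1 := by linear_combination -h
        rw [hc1, one_pow] at hcq
        apply h2
        linear_combination hcq
      have h1c' : 1 + c ≠ 0 := by
        intro h
        have hc1 : c = -1 := by linear_combination h
        rw [hc1, herm_neg_pow hF, one_pow, neg_neg] at hcq
        apply h2
        linear_combination -hcq
      have hμq : ((1 + c) / (1 - c)) ^ q = (1 - c) / (1 + c) := by
        rw [div_pow, herm_add_pow hF, herm_sub_pow hF, one_pow, hcq, sub_neg_eq_add,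
          ← sub_eq_add_neg]
      have hb₀q : b₀ ^ q = -b₀ := by linear_combination htr
      refine ⟨b₀ * ((1 + c) / (1 - c)), ?_, ?_⟩
      · rw [mul_pow, hb₀, pow_succ ((1 + c) / (1 - c)) q, hμq]
        field_simp
      · rw [mul_pow, hμq, hb₀q]
        intro h
        have key : b₀ * (4 * c) = 0 := by
          have e : b₀ * (4 * c) = (b₀ * ((1 + c) / (1 - c)) + -b₀ * ((1 - c) / (1 + c)))
              * ((1 - c) * (1 + c)) := by
            field_simp
            ring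
          rw [e, h, zero_mul]
        rcases mul_eq_zero.mp key with h' | h'
        · exact hb₀0 h'
        · rcases mul_eq_zero.mp h' with h'' | h''
          · apply h2
            have : (2 : F) * 2 = 0 := by linear_combination h''
            rcases mul_eq_zero.mp this with h3 | h3 <;> exact h3
          · exact hc0 h''
    · exact ⟨b₀, hb₀, htr⟩
  obtain ⟨b, hbN, hbT⟩ := hb
  have hzq : (-(b + b ^ q)) ^ q = -(b + b ^ q) := by
    rw [herm_neg_pow hF, herm_add_pow hF, herm_pow_pow hF]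
    ring
  obtain ⟨a, ha⟩ := exists_norm_eq hF _ hzq
  have ha0 : a ≠ 0 := by
    rintro rfl
    rw [zero_pow (by omega)] at ha
    apply hbT
    linear_combination ha
  refine ⟨a, b, c, 2 * (b ^ (q + 1)) ^ 2 * c ^ 4, ha0, ?_, hc0, ?_, rfl, ?_⟩
  · rw [ha]
    ring
  · rw [hcq]
    ring
  · intro A hcA hA x hx
    have hρ : 2 * (b ^ (q + 1)) ^ 2 * c ^ 4 = 2 * σ ^ 2 := by
      rw [hbN]
      field_simp
    rw [hρ] at hA
    obtain ⟨k, hk⟩ : ∃ k : ℕ, (k : F) * 2 = 1 := by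
      have hp : (ringChar F).Prime := CharP.char_is_prime F (ringChar F)
      have hodd : ringChar F ≠ 2 := by
        intro h
        apply h2
        have := CharP.cast_eq_zero F (ringChar F)
        rw [h] at this
        exact_mod_cast this
      obtain ⟨j, hj⟩ : ∃ j, ringChar F = 2 * j + 1 := by
        rcases hp.eq_two_or_odd with h | h
        · exact absurd h hodd
        · exact ⟨ringChar F / 2, by omega⟩
      refine ⟨j + 1, ?_⟩
      have h0 : ((ringChar F : ℕ) : F) = 0 := CharP.cast_eq_zero F (ringChar F)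
      rw [hj] at h0
      push_cast at h0 ⊢
      linear_combination h0
    have hσ2 : ∀ x ∈ A, σ ^ 2 * x ∈ A := by
      intro x hxA
      have h1 := A.nsmul_mem (hA x hxA) k
      have e : k • (2 * σ ^ 2 * x) = σ ^ 2 * x := by
        rw [nsmul_eq_mul]
        linear_combination (σ ^ 2 * x) * hk
      rwa [e] at h1
    have hpow : ∀ j : ℕ, c * (σ ^ j) ^ 2 ∈ A := by
      intro j
      induction j with
      | zero => simpa using hcA
      | succ j ih =>
        have h1 := hσ2 _ ih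
        have e : σ ^ 2 * (c * (σ ^ j) ^ 2) = c * (σ ^ (j + 1)) ^ 2 := by ring
        rwa [e] at h1
    have hsq : ∀ s : F, s ^ q = s → c * s ^ 2 ∈ A := by
      intro s hs
      by_cases hs0 : s = 0
      · rw [hs0, zero_pow two_ne_zero, mul_zero]
        exact A.zero_mem
      · obtain ⟨j, hj⟩ := hσ s hs0 hs
        rw [hj]
        exact hpow j
    have h2q : (2 : F) ^ q = 2 := by
      have h := herm_add_pow hF (1 : F) 1
      rw [one_pow, one_add_one_eq_two] at h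
      exact h
    have hxq : x ^ q = -x := by linear_combination hx
    have hyq : (x / c) ^ q = x / c := by
      rw [div_pow, hxq, hcq, neg_div_neg_eq]
    have hs1 : ((x / c + 1) / 2) ^ q = (x / c + 1) / 2 := by
      rw [div_pow, herm_add_pow hF, hyq, one_pow, h2q]
    have hs2 : ((x / c - 1) / 2) ^ q = (x / c - 1) / 2 := by
      rw [div_pow, herm_sub_pow hF, hyq, one_pow, h2q]
    have e : x = c * ((x / c + 1) / 2) ^ 2 - c * ((x / c - 1) / 2) ^ 2 := by
      field_simp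
      ring
    rw [e]
    exact A.sub_mem (hsq _ hs1) (hsq _ hs2)

/-- PAR. -/
theorem su_par (hF : Fintype.card F = q ^ 2) :
    ∃ a b c ρ : F, a ≠ 0 ∧ b + b ^ q + a ^ (q + 1) = 0 ∧ c ≠ 0 ∧ c + c ^ q = 0 ∧
      (((2 : F) = 0 ∧ ρ = (b ^ (q + 1)) ^ 2 * a ^ (q + 1) * c ^ 3) ∨
        ((2 : F) ≠ 0 ∧ ρ = 2 * (b ^ (q + 1)) ^ 2 * c ^ 4)) ∧
      ∀ A : AddSubgroup F, c ∈ A → (∀ x ∈ A, ρ * x ∈ A) → ∀ x : F, x + x ^ q = 0 → x ∈ A := by
  by_cases h2 : (2 : F) = 0
  · obtain ⟨a, b, c, ρ, h1, h3, h4, h5, h6, h7⟩ := par_even hF h2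
    exact ⟨a, b, c, ρ, h1, h3, h4, h5, Or.inl ⟨h2, h6⟩, h7⟩
  · obtain ⟨a, b, c, ρ, h1, h3, h4, h5, h6, h7⟩ := par_odd hF h2
    exact ⟨a, b, c, ρ, h1, h3, h4, h5, Or.inr ⟨h2, h6⟩, h7⟩

end Cfsg.Agent.Lib.Helper68.SUReg
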