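import Cfsg.Agent.Lib.Helper47.S76Defs
import Cfsg.Agent.Lib.Helper88.S76QDCENT
import Cfsg.Agent.Lib.Helper20.S76QDEX

/-!
# S5976 project (helper47), piece QDMAIN

The centraliser in `Sp_{2d}(q)` of an element `x` with `x² - 2a x + 1 = 0`, the quadratic being
irreducible, has the order of `GU_d(q)`.
-/

set_option autoImplicit false

universe u

namespace Cfsg.Agent.Lib.Helper68.S76QDMAIN

open Matrix Polynomial Cfsg.Agent.Lib.Helper47 Cfsg.Agent.Lib.Helper47.S76

variable {F : Type u} [Field F]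

theorem qdmain_natDegree (a : F) : (X ^ 2 - C (2 * a) * X + 1 : F[X]).natDegree = 2 := by
  compute_degree!

theorem qdmain_monic (a : F) : (X ^ 2 - C (2 * a) * X + 1 : F[X]).Monic := by
  monicity!

theorem qdmain_irreducible (a : F) (hirr : ∀ c : F, c * c - 2 * a * c + 1 ≠ 0) :
    Irreducible (X ^ 2 - C (2 * a) * X + 1 : F[X]) := by
  apply Polynomial.irreducible_of_degree_le_three_of_not_isRoot
  · rw [qdmain_natDegree]
    decide
  · intro c hc
    rw [IsRoot.def] at hc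
    simp only [eval_add, eval_sub, eval_mul, eval_pow, eval_X, eval_one, eval_C] at hc
    apply hirr c
    linear_combination hc

/-- the core of QDMAIN, with the model data and the two facts about it as hypotheses -/
theorem qdmain_core [Fintype F] {q : ℕ} (d : ℕ) (a : F)
    (hirr : ∀ c : F, c * c - 2 * a * c + 1 ≠ 0)
    (x : Matrix.symplecticGroup (Fin d) F)
    (hx : (x : Matrix (Fin d ⊕ Fin d) (Fin d ⊕ Fin d) F) *
        (x : Matrix (Fin d ⊕ Fin d) (Fin d ⊕ Fin d) F)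
      - (2 * a) • (x : Matrix (Fin d ⊕ Fin d) (Fin d ⊕ Fin d) F) + 1 = 0)
    {K : Type u} [Field K] [Fintype K] [Algebra F K] {ω : K} {τ : K →ₗ[F] F}
    (D : QuadData F K q ω τ) (hω : ω * ω - algebraMap F K (2 * a) * ω + 1 = 0)
    (hforms : IsSForm (RingHom.id F) (-1) (cubeForm d q τ) ∧ Nondeg (cubeForm d q τ) ∧
      (∀ u : Fin d → K, cubeForm d q τ u u = 0) ∧
      (∀ u v : Fin d → K,
        cubeForm d q τ (cubeMul F d ω u) (cubeMul F d ω v) = cubeForm d q τ u v) ∧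
      Module.finrank F (Fin d → K) = 2 * d)
    (hcent : ∀ φ : (Fin d ⊕ Fin d → F) ≃ₗ[F] (Fin d → K),
      (∀ v, φ ((x : Matrix (Fin d ⊕ Fin d) (Fin d ⊕ Fin d) F) *ᵥ v) = ω • φ v) →
      (∀ v w, cubeForm d q τ (φ v) (φ w) = spForm (Fin d) F v w) →
      Nat.card (Subgroup.centralizer ({x} : Set (Matrix.symplecticGroup (Fin d) F)))
        = Nat.card (Cfsg.GU d K q)) :
    Nat.card (Subgroup.centralizer ({x} : Set (Matrix.symplecticGroup (Fin d) F)))
      = guOrd q d := by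
  classical
  obtain ⟨hS, hN, hA, hI, hfinK⟩ := hforms
  have hfi := qdmain_irreducible a hirr
  have hfm := qdmain_monic a
  have hfd := qdmain_natDegree a
  have hsep : (X ^ 2 - C (2 * a) * X + 1 : F[X]).Separable :=
    PerfectField.separable_of_irreducible hfi
  obtain ⟨Y, hY⟩ : ∃ Y : Matrix (Fin d ⊕ Fin d) (Fin d ⊕ Fin d) F, Y = x := ⟨_, rfl⟩
  rw [← hY] at hx
  have haevY : aeval (Matrix.toLin' Y) (X ^ 2 - C (2 * a) * X + 1 : F[X]) = 0 := by
    have h1 : (1 : Module.End F (Fin d ⊕ Fin d → F))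
        = Matrix.toLin' (1 : Matrix (Fin d ⊕ Fin d) (Fin d ⊕ Fin d) F) := by
      rw [Matrix.toLin'_one]
      rfl
    have h2 : Matrix.toLin' (Y * Y - (2 * a) • Y + 1) = 0 := by rw [hx, map_zero]
    rw [map_add, map_sub, map_mul, map_pow, aeval_X, aeval_C, map_one, pow_two,
      Algebra.algebraMap_eq_smul_one, smul_mul_assoc, one_mul]
    rw [map_add, map_sub, map_smul, Matrix.toLin'_mul, ← h1] at h2
    exact h2
  have haevK : aeval (cubeMul F d ω) (X ^ 2 - C (2 * a) * X + 1 : F[X]) = 0 := by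
    rw [map_add, map_sub, map_mul, map_pow, aeval_X, aeval_C, map_one, pow_two,
      Algebra.algebraMap_eq_smul_one, smul_mul_assoc, one_mul]
    apply LinearMap.ext
    intro u
    simp only [LinearMap.add_apply, LinearMap.sub_apply, LinearMap.smul_apply,
      Module.End.mul_apply, Module.End.one_apply, cubeMul_apply, LinearMap.zero_apply]
    have h3 : ω • ω • u - (2 * a) • ω • u + u
        = (ω * ω - algebraMap F K (2 * a) * ω + 1) • u := by
      rw [add_smul, sub_smul, one_smul, mul_smul ω ω u,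
        mul_smul (algebraMap F K (2 * a)) ω u, algebraMap_smul]
    rw [h3, hω, zero_smul]
  obtain ⟨k, hk, hkd⟩ := charpoly_eq_pow_of_aeval (Fin d ⊕ Fin d → F) (Matrix.toLin' Y)
    (X ^ 2 - C (2 * a) * X + 1 : F[X]) hfm hfi hsep haevY
  obtain ⟨k', hk', hkd'⟩ := charpoly_eq_pow_of_aeval (Fin d → K) (cubeMul F d ω)
    (X ^ 2 - C (2 * a) * X + 1 : F[X]) hfm hfi hsep haevK
  have hfin : Module.finrank F (Fin d ⊕ Fin d → F) = 2 * d := by
    rw [Module.finrank_fintype_fun_eq_card, Fintype.card_sum, Fintype.card_fin]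
    ring
  rw [hfin, hfd] at hkd
  rw [hfinK, hfd] at hkd'
  have hkk : k = k' := by omega
  have hchar : (Matrix.toLin' Y).charpoly = (cubeMul F d ω).charpoly := by
    rw [hk, hk', hkk]
  obtain ⟨φ, hφg, hφB⟩ := exists_isometry_conj (σ := RingHom.id F) (ε := -1) (fun _ => rfl)
    (Or.inl ⟨rfl, rfl⟩) (2 * d) (Fin d ⊕ Fin d → F) (Fin d → K) (spForm (Fin d) F)
    (cubeForm d q τ) (Matrix.toLin' Y) (cubeMul F d ω) hfin spForm_isSForm hS
    spForm_nondeg hN (fun _ => spForm_alt) (fun _ => hA)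
    (Module.End.isSemisimple_of_squarefree_aeval_eq_zero hsep.squarefree haevY)
    (Module.End.isSemisimple_of_squarefree_aeval_eq_zero hsep.squarefree haevK)
    (spForm_isometry (hY ▸ x.2)) hI hchar
  rw [hcent φ (fun v => by rw [← hY]; exact hφg v) hφB,
    Cfsg.Agent.Lib.Helper7.card_GU D.cardK d]
  rfl

/-- QDMAIN with the existence of the quadratic model (piece QDEX) as a hypothesis -/
theorem card_centralizer_quad_of [Fintype F] {q : ℕ} (d : ℕ) (a : F)
    (hirr : ∀ c : F, c * c - 2 * a * c + 1 ≠ 0)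
    (x : Matrix.symplecticGroup (Fin d) F)
    (hx : (x : Matrix (Fin d ⊕ Fin d) (Fin d ⊕ Fin d) F) *
        (x : Matrix (Fin d ⊕ Fin d) (Fin d ⊕ Fin d) F)
      - (2 * a) • (x : Matrix (Fin d ⊕ Fin d) (Fin d ⊕ Fin d) F) + 1 = 0)
    (hex : ∃ (K : Type u) (_ : Field K) (_ : Fintype K) (_ : Algebra F K) (ω : K)
      (τ : K →ₗ[F] F), QuadData F K q ω τ ∧ ω * ω - algebraMap F K (2 * a) * ω + 1 = 0) :
    Nat.card (Subgroup.centralizer ({x} : Set (Matrix.symplecticGroup (Fin d) F)))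
      = guOrd q d := by
  obtain ⟨K, _, _, _, ω, τ, D, hω⟩ := hex
  exact qdmain_core d a hirr x hx D hω (Cfsg.Agent.Lib.Helper88.S76QDCENT.quad_forms D d)
    (fun φ h1 h2 => Cfsg.Agent.Lib.Helper88.S76QDCENT.quad_card_centralizer D φ x h1 h2)

/-- PIECE QDMAIN -/
theorem card_centralizer_quad [Fintype F] {q : ℕ} (hq : Fintype.card F = q) (h2 : (2 : F) ≠ 0)
    (d : ℕ) (a : F) (hirr : ∀ c : F, c * c - 2 * a * c + 1 ≠ 0)
    (x : Matrix.symplecticGroup (Fin d) F)
    (hx : (x : Matrix (Fin d ⊕ Fin d) (Fin d ⊕ Fin d) F) * (x : Matrix (Fin d ⊕ Fin d) (Fin d ⊕ Fin d) F)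
      - (2 * a) • (x : Matrix (Fin d ⊕ Fin d) (Fin d ⊕ Fin d) F) + 1 = 0) :
    Nat.card (Subgroup.centralizer ({x} : Set (Matrix.symplecticGroup (Fin d) F))) = guOrd q d :=
  card_centralizer_quad_of d a hirr x hx (Cfsg.Agent.Lib.Helper20.S76QDEX.exists_quadData hq h2 a hirr)

end Cfsg.Agent.Lib.Helper68.S76QDMAIN
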