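import Mathlib
import Cfsg.Agent.Lib.Helper54.OUO2

/-! BAL-I (job board piece for S2731, poster helper54): a non-scalar involution in
`Omega_{2m+1}(K)`. -/

set_option maxHeartbeats 400000
set_option autoImplicit false

namespace Cfsg.Agent.Lib.Helper68.Bal

open Module QuadraticMap Matrix
open Cfsg Cfsg.Agent.Lib.Helper51 Cfsg.Agent.Lib.Helper54 Cfsg.Agent.Lib.Helper54.OUO2

theorem exists_invol_aux {K : Type*} [Field K] [Fintype K] (h2 : (2 : K) ≠ 0) {m : ℕ}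
    (hm : 2 ≤ m) :
    ∃ t : ↥(Cfsg.Omega K ⇑(QOdd m K)), t * t = 1 ∧
      ∀ c : K, ((((t : ↥(Cfsg.isometryGroup K ⇑(QOdd m K))) :
        Matrix.GeneralLinearGroup (Unit ⊕ (Fin m ⊕ Fin m)) K) :
        Matrix (Unit ⊕ (Fin m ⊕ Fin m)) (Unit ⊕ (Fin m ⊕ Fin m)) K)) ≠
          c • (1 : Matrix (Unit ⊕ (Fin m ⊕ Fin m)) (Unit ⊕ (Fin m ⊕ Fin m)) K) := by
  classical
  obtain ⟨i0, i1, hne⟩ : ∃ i0 i1 : Fin m, i0 ≠ i1 :=
    ⟨⟨0, by omega⟩, ⟨1, by omega⟩, by intro h; simpa using congrArg Fin.val h⟩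
  obtain ⟨Q, hQ⟩ : ∃ Q, Q = QOdd m K := ⟨_, rfl⟩
  rw [← hQ]
  obtain ⟨v, hv⟩ : ∃ v : Unit ⊕ (Fin m ⊕ Fin m) → K, v = Pi.single (Sum.inl ()) 1 := ⟨_, rfl⟩
  obtain ⟨w, hw⟩ : ∃ w : Unit ⊕ (Fin m ⊕ Fin m) → K,
      w = Pi.single (Sum.inr (Sum.inl i0)) 1 + Pi.single (Sum.inr (Sum.inr i0)) 1 := ⟨_, rfl⟩
  obtain ⟨u, hu⟩ : ∃ u : Unit ⊕ (Fin m ⊕ Fin m) → K, u = Pi.single (Sum.inr (Sum.inl i1)) 1 :=
    ⟨_, rfl⟩
  have hQv : Q v = 1 := by
    rw [hQ, QOdd_apply, hv]; simp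
  have hQw : Q w = 1 := by
    rw [hQ, QOdd_apply, hw]; simp [Pi.single_apply]
  have hvw : polar ⇑Q v w = 0 := by
    rw [hQ, polar_QOdd, hv, hw]; simp
  have hwv : polar ⇑Q w v = 0 := by
    rw [hQ, polar_QOdd, hv, hw]; simp
  have hvu : polar ⇑Q v u = 0 := by
    rw [hQ, polar_QOdd, hv, hu]; simp
  have hwu : polar ⇑Q w u = 0 := by
    rw [hQ, polar_QOdd, hw, hu]; simp [Pi.single_apply, hne]
  have hvv : polar ⇑Q v v = 2 := by
    rw [QuadraticMap.polar_self, hQv]; simp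
  have hww : polar ⇑Q w w = 2 := by
    rw [QuadraticMap.polar_self, hQw]; simp
  have hv0 : Q v ≠ 0 := by rw [hQv]; exact one_ne_zero
  have hw0 : Q w ≠ 0 := by rw [hQw]; exact one_ne_zero
  obtain ⟨t0, ht0⟩ : ∃ t0, t0 = refl Q v hv0 * refl Q w hw0 := ⟨_, rfl⟩
  have hF : ringChar K ≠ 2 := by
    intro h
    apply h2
    have := CharP.cast_eq_zero K (ringChar K)
    rw [h] at this
    exact_mod_cast this
  have hdet : detO Q t0 = 1 := by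
    rw [ht0, map_mul, detO_refl, detO_refl]; simp
  have hχ : spinChar Q 1 t0 = 1 := by
    rw [ht0, map_mul, spinChar_refl_of_isSquare Q h2 1 one_ne_zero v hv0 ⟨1, by rw [hQv]⟩,
      spinChar_refl_of_isSquare Q h2 1 one_ne_zero w hw0 ⟨1, by rw [hQw]⟩]
    simp
  have hmem : t0 ∈ commutator (isometryGroup K ⇑Q) :=
    mem_commutator_of_det_spin Q hF (hQ ▸ polarSep_odd h2) t0 hdet hχ
  have hT : ∀ x, (((t0 : isometryGroup K ⇑Q) : Matrix.GeneralLinearGroup (Unit ⊕ (Fin m ⊕ Fin m)) K) :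
      Matrix (Unit ⊕ (Fin m ⊕ Fin m)) (Unit ⊕ (Fin m ⊕ Fin m)) K).mulVec x
        = x - (polar ⇑Q w x) • w - (polar ⇑Q v x) • v := by
    intro x
    rw [ht0, coe_mul', coe_refl, coe_refl, ← Matrix.mulVec_mulVec, reflectionMatrix_mulVec,
      reflectionMatrix_mulVec, hQv, hQw, inv_one, one_mul, one_mul, polar_sub_right,
      polar_smul_right, hvw, smul_zero, sub_zero]
  refine ⟨⟨t0, hmem⟩, ?_, ?_⟩
  · apply Subtype.ext
    apply isometry_ext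
    apply matrix_ext_mulVec
    intro x
    show (((t0 * t0 : isometryGroup K ⇑Q) : Matrix.GeneralLinearGroup (Unit ⊕ (Fin m ⊕ Fin m)) K) :
      Matrix (Unit ⊕ (Fin m ⊕ Fin m)) (Unit ⊕ (Fin m ⊕ Fin m)) K).mulVec x
        = (1 : Matrix (Unit ⊕ (Fin m ⊕ Fin m)) (Unit ⊕ (Fin m ⊕ Fin m)) K).mulVec x
    rw [coe_mul', ← Matrix.mulVec_mulVec, hT x, hT, Matrix.one_mulVec]
    simp only [polar_sub_right, polar_smul_right, hvw, hwv, hvv, hww, smul_eq_mul, mul_zero,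
      sub_zero]
    module
  · intro c hc
    have h1 := hT u
    have h3 := hT v
    rw [show (((t0 : isometryGroup K ⇑Q) : Matrix.GeneralLinearGroup (Unit ⊕ (Fin m ⊕ Fin m)) K) :
        Matrix (Unit ⊕ (Fin m ⊕ Fin m)) (Unit ⊕ (Fin m ⊕ Fin m)) K)
      = c • (1 : Matrix (Unit ⊕ (Fin m ⊕ Fin m)) (Unit ⊕ (Fin m ⊕ Fin m)) K) from hc,
      Matrix.smul_mulVec, Matrix.one_mulVec] at h1 h3
    rw [hwu, hvu, zero_smul, zero_smul, sub_zero, sub_zero] at h1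
    rw [hwv, hvv, zero_smul, sub_zero] at h3
    have e1 := congrFun h1 (Sum.inr (Sum.inl i1))
    have e3 := congrFun h3 (Sum.inl ())
    rw [hu] at e1
    rw [hv] at e3
    simp at e1 e3
    apply h2
    rw [e1] at e3
    linear_combination e3

/-- BAL-I: a non-scalar involution in `Omega_{2m+1}(K)`. -/
theorem exists_invol {K : Type*} [Field K] [Fintype K] (h2 : (2 : K) ≠ 0) {m : ℕ} (hm : 2 ≤ m) :
    ∃ t : ↥(Cfsg.Omega K (Cfsg.quadFormOdd m K)), t * t = 1 ∧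
      ∀ c : K, ((((t : ↥(Cfsg.isometryGroup K (Cfsg.quadFormOdd m K))) :
        Matrix.GeneralLinearGroup (Unit ⊕ (Fin m ⊕ Fin m)) K) :
        Matrix (Unit ⊕ (Fin m ⊕ Fin m)) (Unit ⊕ (Fin m ⊕ Fin m)) K)) ≠
          c • (1 : Matrix (Unit ⊕ (Fin m ⊕ Fin m)) (Unit ⊕ (Fin m ⊕ Fin m)) K) := by
  have key := exists_invol_aux (K := K) h2 hm
  rw [coe_QOdd] at key
  exact key

end Cfsg.Agent.Lib.Helper68.Bal
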