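import Mathlib
import Cfsg.Agent.Lib.Helper4.FCDefs

/-! Project FC (S4146, helper4), piece HALF, delivered by helper68: apply S33APP to the
centralizer of `b`, using QREG to compute its `q`-regular class sizes. -/

namespace Cfsg.Agent.Lib.Helper4.FC

universe u

theorem fc_half : QRegStmt.{u} → S33AppStmt.{u} → HalfStmt.{u} := by
  intro hQ hS G _ _ n m q p b w hFour hq hp hpq hb hcsb hw hwb hbw
  obtain ⟨hn1, hm1, hcop, hcs, -, -, -⟩ := hFour
  have hm0 : 0 < m := by omega
  have key : ∀ y : ↥(Cen b), (orderOf y).Coprime q → cs y * m = cs (b * (y : G)) := by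
    intro y hy
    have h := hQ G q b hb y (by rw [Subgroup.orderOf_coe]; exact hy)
    rw [hcsb] at h
    exact h
  refine hS ↥(Cen b) q p n hq hp hpq hn1 ?_ ⟨w, hwb⟩ ?_ ?_
  · intro y hy
    have h := key y hy
    rcases hcs (b * (y : G)) with h1 | h1 | h1 | h1
    · exfalso
      rw [h1] at h
      have h2 : m ∣ 1 := Dvd.intro_left _ h
      have h3 := Nat.eq_one_of_dvd_one h2
      omega
    · exfalso
      rw [h1] at h
      have hmn : m ∣ n := Dvd.intro_left _ h
      have h3 : m = 1 := hcop.symm.eq_one_of_dvd hmn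
      omega
    · left
      rw [h1] at h
      exact Nat.eq_of_mul_eq_mul_right hm0 (by rw [h, one_mul])
    · right
      rw [h1] at h
      exact Nat.eq_of_mul_eq_mul_right hm0 h
  · obtain ⟨k, hk⟩ := hw
    refine ⟨k, ?_⟩
    rw [← Subgroup.orderOf_coe]
    exact hk
  · have hco : (orderOf (⟨w, hwb⟩ : ↥(Cen b))).Coprime q := by
      obtain ⟨k, hk⟩ := hw
      rw [← Subgroup.orderOf_coe]
      show (orderOf w).Coprime q
      rw [hk]
      exact Nat.Coprime.pow_left k ((Nat.coprime_primes hp hq).2 hpq)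
    have h := key ⟨w, hwb⟩ hco
    have h2 : cs (b * ((⟨w, hwb⟩ : ↥(Cen b)) : G)) = n * m := hbw
    rw [h2] at h
    exact Nat.eq_of_mul_eq_mul_right hm0 h

end Cfsg.Agent.Lib.Helper4.FC
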