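import Mathlib
import Cfsg.Agent.Lib.Helper4.FCDefs

/-! Project FC (S4146, helper4), piece W2, delivered by helper68: an element `u` of the normal
`q`-complement `K` lying in `C(b)` has class size prime to `q` in `C(b)`. -/

namespace Cfsg.Agent.Lib.Helper4.FC

universe u

theorem fc_w2 : QRegStmt.{u} → W2Stmt.{u} := by
  intro hQ G _ _ n m q K b u hFour hq hmq hKn hKq hcsb hb huK hdiv
  obtain ⟨hn1, hm1, hcop, hcs, -, -, -⟩ := hFour
  have hm0 : 0 < m := by omega
  have hco : (orderOf (u : G)).Coprime q :=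
    Nat.Coprime.coprime_dvd_left (Subgroup.orderOf_dvd_natCard K huK) hKq
  have h := hQ G q b hb u hco
  rw [hcsb] at h
  have hqm : q ∣ m := by
    obtain ⟨i, rfl⟩ := hmq
    rcases Nat.eq_zero_or_pos i with rfl | hi
    · simp at hm1
    · exact dvd_pow_self q hi.ne'
  have hu : cs u = 1 ∨ cs u = n := by
    rcases hcs (b * (u : G)) with h1 | h1 | h1 | h1
    · exfalso
      rw [h1] at h
      have h2 : m ∣ 1 := Dvd.intro_left _ h
      have h3 := Nat.eq_one_of_dvd_one h2
      omega
    · exfalso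
      rw [h1] at h
      have hmn : m ∣ n := Dvd.intro_left _ h
      have h3 : m = 1 := hcop.symm.eq_one_of_dvd hmn
      omega
    · left
      rw [h1] at h
      exact Nat.eq_of_mul_eq_mul_right hm0 (by rw [h, one_mul])
    · right
      rw [h1] at h
      exact Nat.eq_of_mul_eq_mul_right hm0 h
  rcases hu with h1 | h1
  · rw [h1] at hdiv
    exact hq.one_lt.ne' (Nat.eq_one_of_dvd_one hdiv)
  · rw [h1] at hdiv
    have h2 : q ∣ Nat.gcd n m := Nat.dvd_gcd hdiv hqm
    rw [hcop.gcd_eq_one] at h2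
    exact hq.one_lt.ne' (Nat.eq_one_of_dvd_one h2)

end Cfsg.Agent.Lib.Helper4.FC
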