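import Mathlib
import Cfsg.Agent.Lib.Helper72.Frattini
import Cfsg.Agent.Lib.Helper75.FrattiniAct

/-!
# Frattini index is submultiplicative along normal series of p-groups (helper68)
-/

set_option autoImplicit false

namespace Cfsg.Agent.Lib.Helper68

open Cfsg.Agent.Lib

universe u v

section fratA

variable {X : Type u} [Group X] [Finite X] {p : ℕ} [Fact p.Prime]

/-- The Frattini subgroup of a normal subgroup of a `p`-group lies in the Frattini subgroup. -/
theorem frattini_map_subtype_le (hX : IsPGroup p X) (K : Subgroup X) :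
    (frattini K).map K.subtype ≤ frattini X := by
  rw [Subgroup.map_le_iff_le_comap]
  have hK : IsPGroup p K := hX.to_subgroup K
  haveI : ((frattini X).comap K.subtype).Normal := Subgroup.Normal.comap inferInstance _
  apply Helper72.frattini_le_of_forall_pow_mem (Fact.out : p.Prime)
  · intro x
    rw [Subgroup.mem_comap, map_pow]
    exact Helper72.pow_mem_frattini hX _
  · intro x y
    rw [Subgroup.mem_comap]
    simp only [map_mul, map_inv]
    exact Helper72.comm_mem_frattini hX _ _

theorem frattini_le_map_of_surjective (hX : IsPGroup p X) {Q : Type v} [Group Q] [Finite Q]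
    (ψ : X →* Q) (hψ : Function.Surjective ψ) : frattini Q ≤ (frattini X).map ψ := by
  haveI : ((frattini X).map ψ).Normal := Subgroup.Normal.map inferInstance ψ hψ
  apply Helper72.frattini_le_of_forall_pow_mem (Fact.out : p.Prime)
  · intro q
    obtain ⟨x, rfl⟩ := hψ q
    rw [← map_pow]
    exact Subgroup.mem_map_of_mem ψ (Helper72.pow_mem_frattini hX x)
  · intro q r
    obtain ⟨x, rfl⟩ := hψ q
    obtain ⟨y, rfl⟩ := hψ r
    have h := Subgroup.mem_map_of_mem ψ (Helper72.comm_mem_frattini hX x y)
    simpa only [map_mul, map_inv] using h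

/-- `[X : Φ(X)] ≤ [X/K : Φ(X/K)] · [K : Φ(K)]`. -/
theorem frat_index_le_quot (hX : IsPGroup p X) (K : Subgroup X) [K.Normal] :
    (frattini X).index ≤ (frattini (X ⧸ K)).index * (frattini K).index := by
  set Φ := frattini X with hΦ
  set ψ := QuotientGroup.mk' K with hψ
  have hsurj : Function.Surjective ψ := QuotientGroup.mk'_surjective K
  set L := (frattini (X ⧸ K)).comap ψ with hL
  have hΦL : Φ ≤ L := frattini_le_comap_frattini_of_surjective hsurj
  have hLidx : L.index = (frattini (X ⧸ K)).index :=
    Subgroup.index_comap_of_surjective _ hsurj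
  have h1 : Φ.relIndex L * L.index = Φ.index := Subgroup.relIndex_mul_index hΦL
  have hLle : L ≤ Φ ⊔ K := by
    intro x hx
    have hx' : ψ x ∈ frattini (X ⧸ K) := hx
    obtain ⟨y, hy, hyx⟩ := frattini_le_map_of_surjective hX ψ hsurj hx'
    have hk : y⁻¹ * x ∈ K := by
      rw [← QuotientGroup.eq]
      exact hyx
    have : x = y * (y⁻¹ * x) := by group
    rw [this]
    exact Subgroup.mul_mem_sup hy hk
  have hne : ∀ H K' : Subgroup X, H.relIndex K' ≠ 0 := fun H K' =>
    (Subgroup.index_ne_zero_of_finite : (H.subgroupOf K').index ≠ 0)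
  have h2 : Φ.relIndex L ≤ Φ.relIndex (Φ ⊔ K) := Subgroup.relIndex_le_of_le_right hLle (hne _ _)
  have h4 : Φ.relIndex (Φ ⊔ K) = Φ.relIndex K := Subgroup.relIndex_sup_left K Φ
  have h5 : Φ.relIndex K ≤ ((frattini K).map K.subtype).relIndex K :=
    Subgroup.relIndex_le_of_le_left (frattini_map_subtype_le hX K) (hne _ _)
  have h6 : ((frattini K).map K.subtype).relIndex K = (frattini K).index := by
    rw [Subgroup.relIndex]
    congr 1
    ext x
    simp [Subgroup.mem_subgroupOf]
  calc Φ.index = Φ.relIndex L * L.index := h1.symm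
    _ ≤ (frattini K).index * (frattini (X ⧸ K)).index := by
        rw [hLidx]
        exact Nat.mul_le_mul_right _ (h2.trans (h4 ▸ h5.trans h6.le))
    _ = _ := mul_comm _ _

theorem frat_index_equiv {A : Type u} {B : Type v} [Group A] [Group B] (e : A ≃* B) :
    (frattini A).index = (frattini B).index := by
  rw [← Helper75.Fratt.frattini_comap_equiv e]
  exact Subgroup.index_comap_of_surjective _ e.surjective

/-- `[X : Φ(X)] ≤ [ψ(X) : Φ(ψ(X))] · [ker ψ : Φ(ker ψ)]`. -/
theorem frat_index_le_range_ker (hX : IsPGroup p X) {Y : Type v} [Group Y] (ψ : X →* Y) :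
    (frattini X).index ≤ (frattini ψ.range).index * (frattini ψ.ker).index := by
  have h := frat_index_le_quot hX ψ.ker
  rwa [frat_index_equiv (QuotientGroup.quotientKerEquivRange ψ)] at h

theorem frat_index_le_card {Y : Type v} [Group Y] [Finite Y] : (frattini Y).index ≤ Nat.card Y :=
  Nat.le_of_dvd Nat.card_pos (Subgroup.index_dvd_card _)

/-- `[X : Φ(X)] ≤ [X : K] · [K : Φ(K)]` for `K` normal. -/
theorem frat_index_le_index_mul (hX : IsPGroup p X) (K : Subgroup X) [K.Normal] :
    (frattini X).index ≤ K.index * (frattini K).index := by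
  refine (frat_index_le_quot hX K).trans (Nat.mul_le_mul_right _ ?_)
  rw [Subgroup.index_eq_card K]
  exact frat_index_le_card

/-- A cyclic `p`-group has Frattini index at most `p`. -/
theorem frat_index_le_of_cyclic (hX : IsPGroup p X) [IsCyclic X] : (frattini X).index ≤ p := by
  rw [Subgroup.index_eq_card]
  have : IsCyclic (X ⧸ frattini X) :=
    isCyclic_of_surjective (QuotientGroup.mk' (frattini X)) (QuotientGroup.mk'_surjective _)
  rw [← IsCyclic.exponent_eq_card]
  apply Nat.le_of_dvd (Fact.out : p.Prime).pos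
  apply Monoid.exponent_dvd_of_forall_pow_eq_one
  intro q
  obtain ⟨x, rfl⟩ := QuotientGroup.mk_surjective q
  rw [← QuotientGroup.mk_pow, QuotientGroup.eq_one_iff]
  exact Helper72.pow_mem_frattini hX x

/-- A `p`-group with a cyclic normal subgroup of index at most `p` has Frattini index `≤ p²`. -/
theorem frat_index_le_of_cyclic_index (hX : IsPGroup p X) (A : Subgroup X) [A.Normal]
    [IsCyclic A] (hA : A.index ≤ p) : (frattini X).index ≤ p * p := by
  refine (frat_index_le_index_mul hX A).trans ?_
  exact Nat.mul_le_mul hA (frat_index_le_of_cyclic (hX.to_subgroup A))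

end fratA

end Cfsg.Agent.Lib.Helper68
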