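import Mathlib
import Cfsg.Agent.Lib.Helper68.FratBoundA

/-!
# Restriction/quotient homomorphisms for a group acting on an abelian group, reducible case
(helper68)
-/

set_option autoImplicit false

namespace Cfsg.Agent.Lib.Helper68

open Cfsg.Agent.Lib

universe u

section red

variable {N : Type u} [CommGroup N] [Finite N] {X : Type u} [Group X] [Finite X]

/-- restriction of the action to an invariant subgroup -/
def resHom (φ : X →* MulAut N) (N₁ : Subgroup N) (hinv : ∀ x : X, ∀ a ∈ N₁, φ x a ∈ N₁) :
    X →* MulAut N₁ where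
  toFun x :=
    { toFun := fun a => ⟨φ x a.1, hinv x a.1 a.2⟩
      invFun := fun a => ⟨φ x⁻¹ a.1, hinv x⁻¹ a.1 a.2⟩
      left_inv := fun a => Subtype.ext (by simp)
      right_inv := fun a => Subtype.ext (by simp)
      map_mul' := fun a b => Subtype.ext (by simp) }
  map_one' := by ext a; simp
  map_mul' x y := by ext a; simp

theorem resHom_apply (φ : X →* MulAut N) (N₁ : Subgroup N)
    (hinv : ∀ x : X, ∀ a ∈ N₁, φ x a ∈ N₁) (x : X) (a : N₁) :
    ((resHom φ N₁ hinv x a : N₁) : N) = φ x a.1 := rfl

/-- induced action on the quotient by an invariant subgroup -/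
def quotHom (φ : X →* MulAut N) (N₁ : Subgroup N) (hinv : ∀ x : X, ∀ a ∈ N₁, φ x a ∈ N₁) :
    X →* MulAut (N ⧸ N₁) where
  toFun x :=
    { toFun := QuotientGroup.map N₁ N₁ (φ x).toMonoidHom (fun a ha => hinv x a ha)
      invFun := QuotientGroup.map N₁ N₁ (φ x⁻¹).toMonoidHom (fun a ha => hinv x⁻¹ a ha)
      left_inv := fun q => by
        induction q using QuotientGroup.induction_on with
        | H a => simp
      right_inv := fun q => by
        induction q using QuotientGroup.induction_on with
        | H a => simp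
      map_mul' := fun a b => map_mul _ a b }
  map_one' := by
    ext q
    induction q using QuotientGroup.induction_on with
    | H a => simp
  map_mul' x y := by
    ext q
    induction q using QuotientGroup.induction_on with
    | H a => simp

theorem quotHom_apply (φ : X →* MulAut N) (N₁ : Subgroup N)
    (hinv : ∀ x : X, ∀ a ∈ N₁, φ x a ∈ N₁) (x : X) (a : N) :
    quotHom φ N₁ hinv x (QuotientGroup.mk a) = QuotientGroup.mk (φ x a) := rfl

omit [Finite X] in
theorem eq_one_of_pow_two_pow (hodd : Odd (Nat.card N)) (m : N) (k : ℕ) (h : m ^ 2 ^ k = 1) :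
    m = 1 := by
  have h1 : orderOf m ∣ 2 ^ k := orderOf_dvd_of_pow_eq_one h
  have h2 : orderOf m ∣ Nat.card N := orderOf_dvd_natCard m
  have hc : Nat.Coprime (2 ^ k) (Nat.card N) :=
    Nat.Coprime.pow_left k (Nat.coprime_two_left.mpr hodd)
  have h3 : orderOf m = 1 := Nat.eq_one_of_dvd_coprimes hc h1 h2
  exact orderOf_eq_one_iff.mp h3

omit [Finite X] in
theorem exists_sq_eq (hodd : Odd (Nat.card N)) (a : N) : ∃ s : N, s * s = a := by
  obtain ⟨k, hk⟩ := hodd
  refine ⟨a ^ (k + 1), ?_⟩
  rw [← pow_add]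
  have : k + 1 + (k + 1) = Nat.card N + 1 := by omega
  rw [this, pow_succ, pow_card_eq_one', one_mul]

theorem eq_one_of_res_quot (hodd : Odd (Nat.card N)) (hX : IsPGroup 2 X) (φ : X →* MulAut N)
    (hφ : Function.Injective φ) (N₁ : Subgroup N) (hinv : ∀ x : X, ∀ a ∈ N₁, φ x a ∈ N₁) (x : X)
    (h1 : resHom φ N₁ hinv x = 1) (h2 : quotHom φ N₁ hinv x = 1) : x = 1 := by
  apply hφ
  rw [map_one]
  ext a
  rw [MulAut.one_apply]
  set m := a⁻¹ * φ x a with hm
  have hmN : m ∈ N₁ := by
    have h := congrArg (fun f => f (QuotientGroup.mk a)) h2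
    simp only [quotHom_apply, MulAut.one_apply] at h
    rw [hm, ← QuotientGroup.eq]
    exact h.symm
  have hxm : φ x m = m := by
    have h := congrArg (fun f => ((f ⟨m, hmN⟩ : N₁) : N)) h1
    simpa only [resHom_apply, MulAut.one_apply] using h
  have hxa : φ x a = a * m := by rw [hm]; group
  have hpow : ∀ j : ℕ, φ (x ^ j) a = a * m ^ j := by
    intro j
    induction j with
    | zero => simp
    | succ j ih =>
      rw [pow_succ', map_mul, MulAut.mul_apply, ih, map_mul, map_pow, hxm, hxa, pow_succ']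
      group
  obtain ⟨k, hk⟩ := hX x
  have h3 := hpow (2 ^ k)
  rw [hk, map_one, MulAut.one_apply] at h3
  have h4 : m ^ 2 ^ k = 1 := by
    have : a * 1 = a * m ^ 2 ^ k := by rw [mul_one]; exact h3
    exact (mul_left_cancel this).symm
  have h5 := eq_one_of_pow_two_pow hodd m k h4
  rw [hxa, h5, mul_one]

/-- The reducible case: the Frattini index is bounded by the product of the Frattini indices of
the group induced on `N₁` and the kernel acting on `N ⧸ N₁`. -/
theorem reducible (hodd : Odd (Nat.card N)) (hX : IsPGroup 2 X) (φ : X →* MulAut N)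
    (hφ : Function.Injective φ) (N₁ : Subgroup N) (hinv : ∀ x : X, ∀ a ∈ N₁, φ x a ∈ N₁) :
    ∃ (X₁ : Subgroup (MulAut N₁)) (X₂ : Subgroup (MulAut (N ⧸ N₁))),
      IsPGroup 2 X₁ ∧ IsPGroup 2 X₂ ∧
      (frattini X).index ≤ (frattini X₁).index * (frattini X₂).index ∧
      Nat.card X ≤ Nat.card X₁ * Nat.card X₂ := by
  set ρ := resHom φ N₁ hinv with hρ
  set σ := (quotHom φ N₁ hinv).comp ρ.ker.subtype with hσdef
  have hσ : Function.Injective σ := by
    rw [injective_iff_map_eq_one]
    rintro ⟨x, hx⟩ h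
    apply Subtype.ext
    exact eq_one_of_res_quot hodd hX φ hφ N₁ hinv x hx h
  refine ⟨ρ.range, σ.range, ?_, ?_, ?_, ?_⟩
  · exact IsPGroup.of_surjective hX ρ.rangeRestrict ρ.rangeRestrict_surjective
  · exact IsPGroup.of_surjective (hX.to_subgroup ρ.ker) σ.rangeRestrict σ.rangeRestrict_surjective
  · calc (frattini X).index ≤ (frattini ρ.range).index * (frattini ρ.ker).index :=
          frat_index_le_range_ker hX ρ
      _ = (frattini ρ.range).index * (frattini σ.range).index := by
          rw [frat_index_equiv (MonoidHom.ofInjective hσ)]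
  · have h1 : ρ.ker.index = Nat.card ρ.range := Subgroup.index_ker ρ
    have h2 : Nat.card ρ.ker * ρ.ker.index = Nat.card X := ρ.ker.card_mul_index
    have h3 : Nat.card ρ.ker = Nat.card σ.range :=
      Nat.card_congr (MonoidHom.ofInjective hσ).toEquiv
    rw [← h2, h1, h3, mul_comm]

end red

end Cfsg.Agent.Lib.Helper68
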