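import Mathlib
import Cfsg.Agent.Lib.Helper68.FratBoundB
import Cfsg.Agent.Lib.Helper31.PGrp
import Cfsg.Agent.Lib.Helper12.NormAbCyc

/-!
# 2-groups of automorphisms of odd abelian groups: small and irreducible cases (helper68)
-/

set_option autoImplicit false

namespace Cfsg.Agent.Lib.Helper68

open Cfsg Cfsg.Agent.Lib

universe u

section small

variable {N : Type u} [CommGroup N] [Finite N] {X : Type u} [Group X] [Finite X]

theorem frat_small (hodd : Odd (Nat.card N)) (hlt : Nat.card N < 9) (hX : IsPGroup 2 X)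
    (φ : X →* MulAut N) (hφ : Function.Injective φ) : (frattini X).index ≤ 2 := by
  by_cases h1 : Nat.card N = 1
  · have hsub : Subsingleton N := (Nat.card_eq_one_iff_unique.mp h1).1
    have hX1 : Subsingleton X := by
      refine ⟨fun x y => hφ ?_⟩
      ext a
      exact Subsingleton.elim _ _
    have : Nat.card X = 1 := Nat.card_eq_one_iff_unique.mpr ⟨hX1, ⟨1⟩⟩
    exact (frat_index_le_card (Y := X)).trans (by omega)
  · have hp : (Nat.card N).Prime := by
      obtain ⟨k, hk⟩ := hodd
      have hk4 : k < 4 := by omega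
      interval_cases k
      · omega
      · rw [hk]; norm_num
      · rw [hk]; norm_num
      · rw [hk]; norm_num
    haveI : Fact (Nat.card N).Prime := ⟨hp⟩
    haveI : IsCyclic N := isCyclic_of_prime_card rfl
    have hcyc : IsCyclic X :=
      isCyclic_of_injective ((IsCyclic.mulAutMulEquiv N).toMonoidHom.comp φ)
        ((IsCyclic.mulAutMulEquiv N).injective.comp hφ)
    exact frat_index_le_of_cyclic hX

theorem card_le_two_of_card_three (h3 : Nat.card N = 3) (φ : X →* MulAut N)
    (hφ : Function.Injective φ) : Nat.card X ≤ 2 := by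
  haveI : Fact (Nat.card N).Prime := ⟨by rw [h3]; norm_num⟩
  haveI : IsCyclic N := isCyclic_of_prime_card rfl
  have h1 : Nat.card (MulAut N) = 2 := by
    rw [IsCyclic.card_mulAut, h3]
    decide
  haveI : Finite (MulAut N) := Nat.finite_of_card_ne_zero (by omega)
  exact h1 ▸ Nat.card_le_card_of_injective φ hφ

omit [Finite X] in
theorem normal_card_two_le_center {A : Subgroup X} (hAn : A.Normal) (hA : Nat.card A = 2) :
    A ≤ Subgroup.center X := by
  obtain ⟨b, hb1, hbuniq⟩ := (Nat.card_eq_two_iff' (1 : A)).mp hA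
  intro a ha
  rw [Subgroup.mem_center_iff]
  intro g
  by_cases ha1 : a = 1
  · rw [ha1, mul_one, one_mul]
  · have h1 : (⟨a, ha⟩ : A) = b := hbuniq _ (fun h => ha1 (congrArg Subtype.val h))
    have hconj : g * a * g⁻¹ ∈ A := hAn.conj_mem a ha g
    have h2 : (⟨g * a * g⁻¹, hconj⟩ : A) = b :=
      hbuniq _ (fun h => ha1 (by
        have h' : g * a * g⁻¹ = 1 := congrArg Subtype.val h
        have : a = g⁻¹ * (g * a * g⁻¹) * g := by group
        rw [this, h', mul_one, inv_mul_cancel]))
    have h3 : g * a * g⁻¹ = a := congrArg Subtype.val (h2.trans h1.symm)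
    calc g * a = g * a * g⁻¹ * g := by group
      _ = a * g := by rw [h3]

/-- A 2-group all of whose normal abelian subgroups are cyclic has a cyclic normal subgroup of
index at most 2. -/
theorem exists_cyclic_index_le_two (hX : IsPGroup 2 X)
    (hnc : ∀ A : Subgroup X, A.Normal → IsMulCommutative A → IsCyclic A) :
    ∃ A : Subgroup X, A.Normal ∧ IsCyclic A ∧ A.index ≤ 2 := by
  obtain ⟨A, hAn, hAc, hmax⟩ := Helper31.exists_max_normal_abelian (P := X)
  have : Group.IsNilpotent X := hX.isNilpotent
  have hC1 : Subgroup.centralizer (A : Set X) ≤ A :=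
    Helper31.centralizer_le_of_max_normal_abelian hAn hAc hmax
  have hAcyc : IsCyclic A := hnc A hAn hAc
  refine ⟨A, hAn, hAcyc, ?_⟩
  obtain ⟨g, hg⟩ := hAcyc.exists_generator
  obtain ⟨a, ha_def⟩ : ∃ a : X, a = (g : X) := ⟨_, rfl⟩
  have hAz : Subgroup.zpowers a = A := by
    apply le_antisymm
    · rw [Subgroup.zpowers_le, ha_def]; exact g.2
    · intro x hx
      obtain ⟨k, hk⟩ := Subgroup.mem_zpowers_iff.mp (hg ⟨x, hx⟩)
      refine Subgroup.mem_zpowers_iff.mpr ⟨k, ?_⟩
      have h := congrArg Subtype.val hk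
      rw [ha_def]
      simpa using h
  have hC2 : A ≤ Subgroup.centralizer (A : Set X) :=
    Subgroup.le_centralizer_iff_isMulCommutative.mpr hAc
  have hC : Subgroup.centralizer (Subgroup.zpowers a : Set X) = Subgroup.zpowers a := by
    rw [hAz]; exact le_antisymm hC1 hC2
  obtain ⟨n, hn⟩ := (IsPGroup.iff_card).mp (hX.to_subgroup A)
  have hord : orderOf a = 2 ^ n := by rw [← Nat.card_zpowers, hAz, hn]
  by_cases hn2 : 2 ≤ n
  · rw [← hAz]
    by_cases htop : Subgroup.zpowers a = ⊤
    · rw [htop, Subgroup.index_top]; norm_num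
    · exact le_of_eq (Helper12.index_zpowers_eq_two_of_normal_abelian_cyclic hX hnc a n hn2 hord
        (by rw [hAz]; exact hAn) hC htop)
  · have hn1 : n ≤ 1 := by omega
    have hAcen : A ≤ Subgroup.center X := by
      rcases Nat.eq_zero_or_pos n with h0 | h0
      · have h1 : Nat.card A = 1 := by rw [hn, h0, pow_zero]
        rw [Subgroup.card_eq_one.mp h1]
        exact bot_le
      · have h1 : Nat.card A = 2 := by
          have h2 : n = 1 := by omega
          rw [hn, h2, pow_one]
        exact normal_card_two_le_center hAn h1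
    have htop : Subgroup.centralizer (A : Set X) = ⊤ := by
      rw [Subgroup.centralizer_eq_top_iff_subset]; exact hAcen
    have h3 : A = ⊤ := top_le_iff.mp (htop ▸ hC1)
    rw [h3, Subgroup.index_top]; norm_num

end small

end Cfsg.Agent.Lib.Helper68
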