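import Mathlib
import Cfsg.Agent.Lib.Helper68.FratBoundC

/-!
# Irreducible 2-groups with a noncyclic normal abelian subgroup (helper68)
-/

set_option autoImplicit false

namespace Cfsg.Agent.Lib.Helper68

open Cfsg Cfsg.Agent.Lib
open scoped Pointwise

universe u

section irr

variable {N : Type u} [CommGroup N] [Finite N] {X : Type u} [Group X] [Finite X]

/-- fixed points of `y` -/
def fixSub (φ : X →* MulAut N) (y : X) : Subgroup N where
  carrier := {a | φ y a = a}
  mul_mem' := by
    intro a b ha hb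
    simp only [Set.mem_setOf_eq] at *
    rw [map_mul, ha, hb]
  one_mem' := map_one _
  inv_mem' := by
    intro a ha
    simp only [Set.mem_setOf_eq] at *
    rw [map_inv, ha]

omit [Finite N] [Finite X] in
theorem mem_fixSub {φ : X →* MulAut N} {y : X} {a : N} : a ∈ fixSub φ y ↔ φ y a = a := Iff.rfl

omit [Finite N] [Finite X] in
theorem fix_map (φ : X →* MulAut N) (y z g : X) (h : z * g = g * y) (a : N)
    (ha : a ∈ fixSub φ y) : φ g a ∈ fixSub φ z := by
  rw [mem_fixSub] at *
  have h1 : φ z (φ g a) = φ (z * g) a := by rw [map_mul φ z g]; rfl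
  have h2 : φ (g * y) a = φ g (φ y a) := by rw [map_mul φ g y]; rfl
  rw [h1, h, h2, ha]

omit [Finite N] [Finite X] in
theorem inverts_of_fixSub_eq_bot (φ : X →* MulAut N) (y : X) (hy : y * y = 1)
    (h : fixSub φ y = ⊥) (a : N) : φ y a = a⁻¹ := by
  have hyy : φ y (φ y a) = a := by
    have h1 : φ y (φ y a) = φ (y * y) a := by rw [map_mul φ y y]; rfl
    rw [h1, hy, map_one]; rfl
  have hmem : a * φ y a ∈ fixSub φ y := by
    rw [mem_fixSub, map_mul, hyy, mul_comm]
  rw [h, Subgroup.mem_bot] at hmem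
  exact eq_inv_of_mul_eq_one_right hmem

omit [Finite N] [Finite X] in
theorem inverts_of_central (φ : X →* MulAut N) (hφ : Function.Injective φ)
    (hirr : ∀ N₁ : Subgroup N, (∀ x : X, ∀ a ∈ N₁, φ x a ∈ N₁) → N₁ = ⊥ ∨ N₁ = ⊤)
    (y : X) (hyc : ∀ g : X, g * y = y * g) (hy : y * y = 1) (hy1 : y ≠ 1) (a : N) :
    φ y a = a⁻¹ := by
  rcases hirr (fixSub φ y) (fun x a ha => fix_map φ y y x (hyc x).symm a ha) with h | h
  · exact inverts_of_fixSub_eq_bot φ y hy h a
  · exfalso
    apply hy1
    apply hφ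
    rw [map_one]
    ext a
    have : a ∈ fixSub φ y := h ▸ Subgroup.mem_top a
    exact this

theorem irreducible_noncyclic (hodd : Odd (Nat.card N)) (hX : IsPGroup 2 X) (φ : X →* MulAut N)
    (hφ : Function.Injective φ)
    (hirr : ∀ N₁ : Subgroup N, (∀ x : X, ∀ a ∈ N₁, φ x a ∈ N₁) → N₁ = ⊥ ∨ N₁ = ⊤)
    (A : Subgroup X) (hAn : A.Normal) (hAc : IsMulCommutative A) (hAnc : ¬ IsCyclic A) :
    ∃ (M : Subgroup X) (N₁ : Subgroup N), M.index = 2 ∧ (∀ x ∈ M, ∀ a ∈ N₁, φ x a ∈ N₁) ∧
      Nat.card N₁ * Nat.card N₁ = Nat.card N ∧ frattini X ≠ ⊥ := by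
  classical
  haveI : Group.IsNilpotent X := hX.isNilpotent
  set Ω := Helper31.omegaOne 2 A hAc with hΩ
  haveI hΩn : Ω.Normal := Helper31.omegaOne_normal hAn
  have hΩcard : 2 < Nat.card Ω := by
    by_contra hle
    push_neg at hle
    apply hAnc
    obtain ⟨a, haA, hAle⟩ := Helper31.exists_gen_of_elemAb_card_le hX hAc (fun W hWA hW => by
      have hWΩ : W ≤ Ω := fun w hw => Helper31.mem_omegaOne.mpr ⟨hWA hw, hW.2 w hw⟩
      exact (Subgroup.card_le_of_le hWΩ).trans hle)
    exact isCyclic_of_injective (Subgroup.inclusion hAle) (Subgroup.inclusion_injective hAle)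
  obtain ⟨U, hUΩ, hUn, hUcard⟩ := Helper31.exists_normal_le_card_eq hX (N := Ω) (k := 1)
    (by rw [pow_one]; exact hΩcard.le)
  rw [pow_one] at hUcard
  obtain ⟨⟨b, hbU⟩, hb1, hbuniq⟩ := (Nat.card_eq_two_iff' (1 : U)).mp hUcard
  have hb1' : b ≠ 1 := fun h => hb1 (Subtype.ext h)
  have hU : ∀ u ∈ U, u = 1 ∨ u = b := by
    intro u hu
    by_cases h : u = 1
    · exact Or.inl h
    · exact Or.inr (congrArg Subtype.val (hbuniq ⟨u, hu⟩ (fun h' => h (congrArg Subtype.val h'))))
  have hbc : ∀ g : X, g * b = b * g := fun g =>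
    Subgroup.mem_center_iff.mp (normal_card_two_le_center hUn hUcard hbU) g
  have hb2 : b * b = 1 := by
    have := (Helper31.mem_omegaOne.mp (hUΩ hbU)).2
    rwa [pow_two] at this
  have hnle : ¬ Ω ≤ U := fun h => by
    have := Subgroup.card_le_of_le h
    omega
  obtain ⟨c, hcΩ, hcU, hcomm⟩ := Helper31.exists_central_mod (C := Ω) (A := U) hnle
  have hc2 : c * c = 1 := by
    have := (Helper31.mem_omegaOne.mp hcΩ).2
    rwa [pow_two] at this
  have hc1 : c ≠ 1 := fun h => hcU (h ▸ U.one_mem)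
  have hbinv' : b⁻¹ = b := inv_eq_of_mul_eq_one_left hb2
  have hdich : ∀ g : X, g * c = c * g ∨ g * c = c * b * g := by
    intro g
    rcases hU _ (hcomm g) with h | h
    · left
      have : c * g = (c * g * c⁻¹ * g⁻¹) * g * c := by group
      rw [this, h, one_mul]
    · right
      have h' : c * g = b * g * c := by
        have : c * g = (c * g * c⁻¹ * g⁻¹) * g * c := by group
        rw [this, h]
      calc g * c = b⁻¹ * (b * g * c) := by group
        _ = b⁻¹ * (c * g) := by rw [h']
        _ = b * (c * g) := by rw [hbinv']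
        _ = c * b * g := by rw [← mul_assoc, ← hbc c]
  have hbinv : ∀ a : N, φ b a = a⁻¹ := inverts_of_central φ hφ hirr b hbc hb2 hb1'
  have hcnc : ∃ g₀ : X, g₀ * c ≠ c * g₀ := by
    by_contra hall
    push_neg at hall
    have hcinvN : ∀ a : N, φ c a = a⁻¹ := inverts_of_central φ hφ hirr c hall hc2 hc1
    apply hcU
    have : c = b := hφ (by ext a; rw [hcinvN, hbinv])
    rw [this]; exact hbU
  obtain ⟨g₀, hg₀⟩ := hcnc
  have hconj_of : ∀ g : X, g * c ≠ c * g → g * c = c * b * g := by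
    intro g hg
    rcases hdich g with h | h
    · exact absurd h hg
    · exact h
  have hg₀c : g₀ * c = c * b * g₀ := hconj_of g₀ hg₀
  set M := Subgroup.centralizer ({c} : Set X) with hM
  have hmemM : ∀ g : X, g ∈ M ↔ g * c = c * g := by
    intro g
    rw [hM, Subgroup.mem_centralizer_iff]
    constructor
    · intro h; exact (h c rfl).symm
    · intro h y hy; rw [Set.mem_singleton_iff.mp hy]; exact h.symm
  have hMidx : M.index = 2 := by
    rw [Subgroup.index_eq_two_iff]
    refine ⟨g₀, fun h => ?_⟩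
    by_cases hh : h ∈ M
    · refine Or.inr ⟨hh, fun h' => hg₀ ?_⟩
      have : g₀ ∈ M := by
        have := M.mul_mem (M.inv_mem hh) h'
        rwa [inv_mul_cancel_left] at this
      exact (hmemM g₀).mp this
    · refine Or.inl ⟨?_, hh⟩
      rw [hmemM]
      have hhc : h * c = c * b * h := hconj_of h (fun h' => hh ((hmemM h).mpr h'))
      calc h * g₀ * c = h * (g₀ * c) := by group
        _ = h * (c * b * g₀) := by rw [hg₀c]
        _ = (h * c) * b * g₀ := by group
        _ = c * b * (h * b) * g₀ := by rw [hhc]; group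
        _ = c * (b * b) * h * g₀ := by rw [hbc h]; group
        _ = c * (h * g₀) := by rw [hb2]; group
  have hcbapp : ∀ a : N, φ (c * b) a = (φ c a)⁻¹ := by
    intro a
    have h1 : φ (c * b) a = φ c (φ b a) := by rw [map_mul φ c b]; rfl
    rw [h1, hbinv, map_inv]
  refine ⟨M, fixSub φ c, hMidx, ?_, ?_, ?_⟩
  · intro x hx a ha
    exact fix_map φ c c x ((hmemM x).mp hx).symm a ha
  · set N₁ := fixSub φ c with hN₁
    set N₂ := fixSub φ (c * b) with hN₂
    have hcg : c * g₀ = g₀ * (c * b) := by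
      symm
      calc g₀ * (c * b) = (g₀ * c) * b := by group
        _ = c * b * g₀ * b := by rw [hg₀c]
        _ = c * b * (g₀ * b) := by group
        _ = c * b * (b * g₀) := by rw [hbc g₀]
        _ = c * (b * b) * g₀ := by group
        _ = c * g₀ := by rw [hb2, mul_one]
    have h12 : ∀ a ∈ N₁, φ g₀ a ∈ N₂ := fun a ha => fix_map φ c (c * b) g₀ hg₀c.symm a ha
    have h21 : ∀ a ∈ N₂, φ g₀ a ∈ N₁ := fun a ha => fix_map φ (c * b) c g₀ hcg a ha
    have hcard : Nat.card N₁ = Nat.card N₂ := by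
      apply le_antisymm
      · exact Nat.card_le_card_of_injective (fun a : N₁ => (⟨φ g₀ a.1, h12 a.1 a.2⟩ : N₂))
          (fun a a' h => Subtype.ext ((φ g₀).injective (congrArg Subtype.val h)))
      · exact Nat.card_le_card_of_injective (fun a : N₂ => (⟨φ g₀ a.1, h21 a.1 a.2⟩ : N₁))
          (fun a a' h => Subtype.ext ((φ g₀).injective (congrArg Subtype.val h)))
    have hdisj : Disjoint N₁ N₂ := by
      rw [Subgroup.disjoint_def]
      intro a h1 h2
      have e1 : φ c a = a := h1
      have e2 : φ (c * b) a = a := h2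
      rw [hcbapp, e1] at e2
      apply eq_one_of_pow_two_pow hodd a 1
      rw [pow_one, pow_two]
      calc a * a = a * a⁻¹ := by rw [e2]
        _ = 1 := mul_inv_cancel a
    have hmul : (N₁ : Set N) * (N₂ : Set N) = Set.univ := by
      rw [Set.eq_univ_iff_forall]
      intro a
      obtain ⟨s, hs⟩ := exists_sq_eq hodd a
      have hccs : φ c (φ c s) = s := by
        have h1 : φ c (φ c s) = φ (c * c) s := by rw [map_mul φ c c]; rfl
        rw [h1, hc2, map_one]; rfl
      refine Set.mem_mul.mpr ⟨s * φ c s, ?_, s * (φ c s)⁻¹, ?_, ?_⟩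
      · show φ c (s * φ c s) = s * φ c s
        rw [map_mul, hccs, mul_comm]
      · show φ (c * b) (s * (φ c s)⁻¹) = s * (φ c s)⁻¹
        rw [hcbapp, map_mul, map_inv, hccs, mul_inv, inv_inv, mul_comm]
      · rw [← hs, mul_mul_mul_comm, mul_inv_cancel, mul_one]
    have hcompl : Subgroup.IsComplement' N₁ N₂ :=
      Subgroup.isComplement'_of_disjoint_and_mul_eq_univ hdisj hmul
    have := hcompl.card_mul_card
    rw [← hcard] at this
    exact this
  · intro hbot
    apply hb1'
    have hmem : g₀ * c * g₀⁻¹ * c⁻¹ ∈ frattini X := Helper72.comm_mem_frattini hX g₀ c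
    have : g₀ * c * g₀⁻¹ * c⁻¹ = b := by
      rw [hg₀c, mul_inv_cancel_right, hbc c, mul_inv_cancel_right]
    rw [this, hbot, Subgroup.mem_bot] at hmem
    exact hmem

end irr

end Cfsg.Agent.Lib.Helper68
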