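import Mathlib
import Cfsg.Agent.Lib.Helper68.FratBoundD

/-!
# The Frattini index of a 2-group of automorphisms of an odd abelian group (helper68)

`frat_bound`: if `X` is a 2-group acting faithfully on an abelian group `N` of odd order `> 1`,
then `[X : Φ(X)] ≤ |N| - 1`.
-/

set_option autoImplicit false

namespace Cfsg.Agent.Lib.Helper68

open Cfsg Cfsg.Agent.Lib

universe u

section num

theorem num_a {f n : ℕ} (hf : f ≤ 4) (hn : 9 ≤ n) : (2 * f) ^ 20 ≤ n ^ 19 := by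
  calc (2 * f) ^ 20 ≤ 8 ^ 20 := Nat.pow_le_pow_left (by omega) 20
    _ ≤ 9 ^ 19 := by norm_num
    _ ≤ n ^ 19 := Nat.pow_le_pow_left hn 19

theorem num_b {f f₁ f₂ n₁ n₂ : ℕ} (h1 : 3 ≤ n₁) (hf1 : f₁ ≤ 2) (hf2 : (2 * f₂) ^ 20 ≤ n₂ ^ 19)
    (hf : f ≤ f₁ * f₂) : (2 * f) ^ 20 ≤ (n₁ * n₂) ^ 19 := by
  have h2 : f ≤ 2 * f₂ := hf.trans (Nat.mul_le_mul_right _ hf1)
  calc (2 * f) ^ 20 ≤ (2 * (2 * f₂)) ^ 20 := Nat.pow_le_pow_left (by omega) 20
    _ = 2 ^ 20 * (2 * f₂) ^ 20 := by rw [mul_pow]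
    _ ≤ 3 ^ 19 * n₂ ^ 19 := Nat.mul_le_mul (by norm_num) hf2
    _ ≤ n₁ ^ 19 * n₂ ^ 19 := Nat.mul_le_mul_right _ (Nat.pow_le_pow_left h1 19)
    _ = (n₁ * n₂) ^ 19 := by rw [mul_pow]

theorem num_c {f f₁ f₂ n₁ n₂ : ℕ} (hf1 : (2 * f₁) ^ 20 ≤ n₁ ^ 19) (hf2 : (2 * f₂) ^ 20 ≤ n₂ ^ 19)
    (hf : f ≤ 2 * (f₁ * f₂)) : (2 * f) ^ 20 ≤ (n₁ * n₂) ^ 19 := by
  calc (2 * f) ^ 20 ≤ ((2 * f₁) * (2 * f₂)) ^ 20 := Nat.pow_le_pow_left (by nlinarith) 20
    _ = (2 * f₁) ^ 20 * (2 * f₂) ^ 20 := by rw [mul_pow]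
    _ ≤ n₁ ^ 19 * n₂ ^ 19 := Nat.mul_le_mul hf1 hf2
    _ = (n₁ * n₂) ^ 19 := by rw [mul_pow]

theorem num_d {f n : ℕ} (hf : f ≤ 8) (hn : 25 ≤ n) : (2 * f) ^ 20 ≤ n ^ 19 := by
  calc (2 * f) ^ 20 ≤ 16 ^ 20 := Nat.pow_le_pow_left (by omega) 20
    _ ≤ 25 ^ 19 := by norm_num
    _ ≤ n ^ 19 := Nat.pow_le_pow_left hn 19

end num

section main

theorem frat_bound_aux (n : ℕ) : ∀ (N : Type u) [CommGroup N] [Finite N], Nat.card N = n → Odd n →
    ∀ (X : Type u) [Group X] [Finite X], IsPGroup 2 X → ∀ φ : X →* MulAut N,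
    Function.Injective φ →
    (n < 9 → (frattini X).index ≤ 2) ∧ (9 ≤ n → (2 * (frattini X).index) ^ 20 ≤ n ^ 19) := by
  induction n using Nat.strong_induction_on with
  | _ n ih =>
  intro N _ _ hn hodd X _ _ hX φ hφ
  have hoddN : Odd (Nat.card N) := hn ▸ hodd
  refine ⟨fun hlt => frat_small hoddN (hn ▸ hlt) hX φ hφ, fun h9 => ?_⟩
  -- general facts about an invariant proper nontrivial subgroup
  have key : ∀ N₁ : Subgroup N, N₁ ≠ ⊥ → N₁ ≠ ⊤ →
      Nat.card N₁ * Nat.card (N ⧸ N₁) = n ∧ Nat.card N₁ < n ∧ Nat.card (N ⧸ N₁) < n ∧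
      Odd (Nat.card N₁) ∧ Odd (Nat.card (N ⧸ N₁)) ∧ 3 ≤ Nat.card N₁ ∧
      3 ≤ Nat.card (N ⧸ N₁) := by
    intro N₁ hbot htop
    have hmul : Nat.card N₁ * Nat.card (N ⧸ N₁) = n := by
      rw [← hn, ← Subgroup.index_eq_card]; exact N₁.card_mul_index
    have h1 : 1 < Nat.card N₁ := (Subgroup.one_lt_card_iff_ne_bot N₁).mpr hbot
    have h2 : 1 < Nat.card (N ⧸ N₁) := by
      rw [← Subgroup.index_eq_card]
      have h0 : N₁.index ≠ 0 := Subgroup.index_ne_zero_of_finite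
      have h1' : N₁.index ≠ 1 := fun h => htop (Subgroup.index_eq_one.mp h)
      omega
    have ho1 : Odd (Nat.card N₁) := Odd.of_dvd_nat hodd ⟨_, hmul.symm⟩
    have ho2 : Odd (Nat.card (N ⧸ N₁)) := Odd.of_dvd_nat hodd ⟨_, by rw [mul_comm]; exact hmul.symm⟩
    refine ⟨hmul, by nlinarith, by nlinarith, ho1, ho2, ?_, ?_⟩
    · obtain ⟨k, hk⟩ := ho1; omega
    · obtain ⟨k, hk⟩ := ho2; omega
  by_cases hred : ∃ N₁ : Subgroup N, (∀ x : X, ∀ a ∈ N₁, φ x a ∈ N₁) ∧ N₁ ≠ ⊥ ∧ N₁ ≠ ⊤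
  · obtain ⟨N₁, hinv, hbot, htop⟩ := hred
    obtain ⟨X₁, X₂, hX₁, hX₂, hfi, -⟩ := reducible hoddN hX φ hφ N₁ hinv
    obtain ⟨hmul, lt1, lt2, ho1, ho2, h31, h32⟩ := key N₁ hbot htop
    have r1 := ih _ lt1 N₁ rfl ho1 X₁ hX₁ X₁.subtype X₁.subtype_injective
    have r2 := ih _ lt2 (N ⧸ N₁) rfl ho2 X₂ hX₂ X₂.subtype X₂.subtype_injective
    rw [← hmul]
    by_cases c1 : Nat.card N₁ < 9
    · by_cases c2 : Nat.card (N ⧸ N₁) < 9
      · have hf : (frattini X).index ≤ 4 :=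
          hfi.trans (Nat.mul_le_mul (r1.1 c1) (r2.1 c2))
        exact num_a hf (by nlinarith)
      · exact num_b h31 (r1.1 c1) (r2.2 (by omega)) hfi
    · by_cases c2 : Nat.card (N ⧸ N₁) < 9
      · rw [mul_comm (Nat.card N₁)]
        exact num_b h32 (r2.1 c2) (r1.2 (by omega)) (by rw [mul_comm]; exact hfi)
      · exact num_c (r1.2 (by omega)) (r2.2 (by omega)) (hfi.trans (by nlinarith))
  · have hirr : ∀ N₁ : Subgroup N, (∀ x : X, ∀ a ∈ N₁, φ x a ∈ N₁) → N₁ = ⊥ ∨ N₁ = ⊤ := by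
      intro N₁ h
      by_contra hh
      push_neg at hh
      exact hred ⟨N₁, h, hh.1, hh.2⟩
    by_cases hB : ∃ A : Subgroup X, A.Normal ∧ IsMulCommutative A ∧ ¬ IsCyclic A
    · obtain ⟨A, hAn, hAc, hAnc⟩ := hB
      obtain ⟨M, N₁, hM2, hinv, hsq, hfr⟩ := irreducible_noncyclic hoddN hX φ hφ hirr A hAn hAc hAnc
      haveI : M.Normal := Subgroup.normal_of_index_eq_two hM2
      have hXM : (frattini X).index ≤ 2 * (frattini M).index := hM2 ▸ frat_index_le_index_mul hX M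
      obtain ⟨X₁, X₂, hX₁, hX₂, hfi, hcard⟩ := reducible hoddN (hX.to_subgroup M)
        (φ.comp M.subtype) (hφ.comp M.subtype_injective) N₁ (fun x a ha => hinv x.1 x.2 a ha)
      have hbot : N₁ ≠ ⊥ := by
        intro h
        rw [h, Subgroup.card_bot, hn] at hsq
        omega
      have htop : N₁ ≠ ⊤ := by
        intro h
        rw [h, Subgroup.card_top, hn] at hsq
        nlinarith
      obtain ⟨hmul, lt1, lt2, ho1, ho2, h31, h32⟩ := key N₁ hbot htop
      have hq : Nat.card (N ⧸ N₁) = Nat.card N₁ := by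
        rw [hn] at hsq
        have : Nat.card N₁ * Nat.card (N ⧸ N₁) = Nat.card N₁ * Nat.card N₁ := by rw [hmul, hsq]
        exact Nat.eq_of_mul_eq_mul_left (by omega) this
      have r1 := ih _ lt1 N₁ rfl ho1 X₁ hX₁ X₁.subtype X₁.subtype_injective
      have r2 := ih _ lt2 (N ⧸ N₁) rfl ho2 X₂ hX₂ X₂.subtype X₂.subtype_injective
      by_cases c1 : Nat.card N₁ < 9
      · have c2 : Nat.card (N ⧸ N₁) < 9 := hq ▸ c1
        have hfM : (frattini M).index ≤ 4 := hfi.trans (Nat.mul_le_mul (r1.1 c1) (r2.1 c2))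
        by_cases c5 : 5 ≤ Nat.card N₁
        · exact num_d (by omega) (by rw [← hmul, hq]; nlinarith)
        · have h3 : Nat.card N₁ = 3 := by
            obtain ⟨k, hk⟩ := ho1; omega
          have hc1 : Nat.card X₁ ≤ 2 :=
            card_le_two_of_card_three h3 X₁.subtype X₁.subtype_injective
          have hc2 : Nat.card X₂ ≤ 2 :=
            card_le_two_of_card_three (hq.trans h3) X₂.subtype X₂.subtype_injective
          have hcM : Nat.card M ≤ 4 := hcard.trans (Nat.mul_le_mul hc1 hc2)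
          have hcX : Nat.card X ≤ 8 := by
            have := M.card_mul_index
            rw [hM2] at this
            omega
          have hfc : 2 ≤ Nat.card (frattini X) := by
            have := (Subgroup.one_lt_card_iff_ne_bot (frattini X)).mpr hfr
            omega
          have hfX : (frattini X).index ≤ 4 := by
            have := (frattini X).card_mul_index
            nlinarith
          exact num_a hfX h9
      · have c2 : ¬ Nat.card (N ⧸ N₁) < 9 := hq ▸ c1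
        rw [← hmul]
        exact num_c (r1.2 (by omega)) (r2.2 (by omega))
          (hXM.trans (Nat.mul_le_mul_left 2 hfi))
    · push_neg at hB
      obtain ⟨A, hAn, hAcyc, hAidx⟩ := exists_cyclic_index_le_two hX
        (fun A h1 h2 => by
          by_contra h
          exact h (hB A h1 h2))
      have hf : (frattini X).index ≤ 2 * 2 := frat_index_le_of_cyclic_index hX A hAidx
      exact num_a hf h9

/-- If a 2-group `X` acts faithfully on an abelian group `N` of odd order `> 1`, then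
`[X : Φ(X)] ≤ |N| - 1`. -/
theorem frat_bound {N : Type u} [CommGroup N] [Finite N] (hodd : Odd (Nat.card N))
    (h1 : 1 < Nat.card N) {X : Type u} [Group X] [Finite X] (hX : IsPGroup 2 X)
    (φ : X →* MulAut N) (hφ : Function.Injective φ) :
    (frattini X).index ≤ Nat.card N - 1 := by
  obtain ⟨ha, hb⟩ := frat_bound_aux (Nat.card N) N rfl hodd X hX φ hφ
  by_cases h9 : Nat.card N < 9
  · have := ha h9
    obtain ⟨k, hk⟩ := hodd
    omega
  · have h := hb (by omega)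
    by_contra hlt
    have hge : Nat.card N ≤ (frattini X).index := by omega
    have h2 : (2 * Nat.card N) ^ 20 ≤ (2 * (frattini X).index) ^ 20 :=
      Nat.pow_le_pow_left (by omega) 20
    have h3 : Nat.card N ^ 19 < Nat.card N ^ 20 := Nat.pow_lt_pow_right h1 (by norm_num)
    have h4 : Nat.card N ^ 20 ≤ (2 * Nat.card N) ^ 20 := Nat.pow_le_pow_left (by omega) 20
    omega

end main

end Cfsg.Agent.Lib.Helper68
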