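import Mathlib
import Cfsg.Agent.Lib.Helper81.ValTwo

/-! ARITH (job board piece for S4629/S4630/S4631, poster helper81): `2`-adic valuations of the
order formulas of the orthogonal groups. -/

set_option maxHeartbeats 400000
set_option autoImplicit false

namespace Cfsg.Agent.Lib.Helper68.OmegaArith

open Finset Cfsg.Agent.Lib.Helper81.ValTwo

theorem prod_ne_zero' {q : ℕ} (hq1 : 1 < q) (n : ℕ) :
    ∏ i ∈ range n, (q ^ (2 * (i + 1)) - 1) ≠ 0 := by
  rw [Finset.prod_ne_zero_iff]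
  intro i _
  exact one_lt_pow_sub hq1 (by omega)

theorem val_q_pow {q : ℕ} (hodd : Odd q) (k : ℕ) : padicValNat 2 (q ^ k) = 0 := by
  apply padicValNat.eq_zero_of_not_dvd
  intro h
  exact not_two_dvd_of_odd hodd (Nat.Prime.dvd_of_dvd_pow Nat.prime_two h)

theorem val_prod {q : ℕ} (hq1 : 1 < q) (hodd : Odd q) (n : ℕ) :
    padicValNat 2 (∏ i ∈ range n, (q ^ (2 * (i + 1)) - 1))
      = n * padicValNat 2 (q ^ 2 - 1) + padicValNat 2 n.factorial := by
  have h := val_card_sp hq1 hodd n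
  rw [padicValNat.mul (pow_ne_zero _ (by omega)) (prod_ne_zero' hq1 n), val_q_pow hodd,
    zero_add] at h
  exact h

theorem val_of_mod_four {x : ℕ} (h : x % 4 = 2) : padicValNat 2 x = 1 := by
  obtain ⟨t, rfl⟩ : ∃ t, x = 2 * (2 * t + 1) := ⟨x / 4, by omega⟩
  rw [padicValNat.mul (by norm_num) (by omega), padicValNat_self,
    padicValNat.eq_zero_of_not_dvd (by omega)]

theorem geom_id {q : ℕ} (hq : 1 ≤ q) (m : ℕ) :
    (q - 1) * ∑ i ∈ range m, q ^ i + 1 = q ^ m := by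
  induction m with
  | zero => simp
  | succ m ih =>
    rw [Finset.sum_range_succ, mul_add, pow_succ]
    have h : (q - 1) * q ^ m + q ^ m = q ^ m * q := by
      obtain ⟨k, rfl⟩ : ∃ k, q = k + 1 := ⟨q - 1, by omega⟩
      rw [Nat.add_sub_cancel]
      ring
    omega

theorem geom_odd {q : ℕ} (hodd : Odd q) {m : ℕ} (hm : Odd m) :
    Odd (∑ i ∈ range m, q ^ i) := by
  have key : ∀ m, (∑ i ∈ range m, q ^ i) % 2 = m % 2 := by
    intro m
    induction m with
    | zero => simp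
    | succ m ih =>
      rw [Finset.sum_range_succ, Nat.add_mod, ih]
      have h1 : q ^ m % 2 = 1 := Nat.odd_iff.mp hodd.pow
      rw [h1]
      omega
  rw [Nat.odd_iff, key, Nat.odd_iff.mp hm]

theorem val_pow_odd_sub_one {q : ℕ} (hq1 : 1 < q) (hodd : Odd q) {m : ℕ} (hm : Odd m) :
    padicValNat 2 (q ^ m - 1) = padicValNat 2 (q - 1) := by
  have h1 := geom_id (le_of_lt hq1) m
  have h2 : q ^ m - 1 = (q - 1) * ∑ i ∈ range m, q ^ i := by omega
  have hG := geom_odd hodd hm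
  have hG0 : ∑ i ∈ range m, q ^ i ≠ 0 := by
    intro h
    rw [h] at hG
    exact (by decide : ¬ Odd 0) hG
  rw [h2, padicValNat.mul (by omega) hG0,
    padicValNat.eq_zero_of_not_dvd (not_two_dvd_of_odd hG), add_zero]

theorem val_pow_odd_add_one {q : ℕ} (hq1 : 1 < q) (hodd : Odd q) {m : ℕ} (hm : Odd m) :
    padicValNat 2 (q ^ m + 1) = padicValNat 2 (q + 1) := by
  have hm0 : m ≠ 0 := by
    rintro rfl
    exact (by decide : ¬ Odd 0) hm
  have h1 : q ^ (2 * m) - 1 = (q ^ m - 1) * (q ^ m + 1) := by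
    have hpos : 1 ≤ q ^ m := Nat.one_le_pow _ _ (by omega)
    rw [show q ^ (2 * m) = q ^ m * q ^ m by rw [← pow_add]; congr 1; omega]
    obtain ⟨k, hk⟩ : ∃ k, q ^ m = k + 1 := ⟨q ^ m - 1, by omega⟩
    rw [hk, Nat.add_sub_cancel]
    have : (k + 1) * (k + 1) = k * (k + 1 + 1) + 1 := by ring
    omega
  have h2 := val_pow_even_sub_one hq1 hodd hm0
  rw [h1, padicValNat.mul (one_lt_pow_sub hq1 hm0) (by omega),
    val_pow_odd_sub_one hq1 hodd hm, val_sq_sub_one hq1 hodd,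
    padicValNat.eq_zero_of_not_dvd (not_two_dvd_of_odd hm), add_zero] at h2
  omega

theorem val_factorial_succ (k : ℕ) :
    padicValNat 2 (k + 1).factorial = padicValNat 2 (k + 1) + padicValNat 2 k.factorial := by
  rw [Nat.factorial_succ, padicValNat.mul (by omega) (Nat.factorial_ne_zero k)]

theorem val_odd {q : ℕ} (hq1 : 1 < q) (hodd : Odd q) (m : ℕ) :
    padicValNat 2 (2 * q ^ (m ^ 2) * ∏ i ∈ Finset.range m, (q ^ (2 * (i + 1)) - 1))
      = m * padicValNat 2 (q ^ 2 - 1) + padicValNat 2 m.factorial + 1 := by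
  have hq0 : q ≠ 0 := by omega
  rw [padicValNat.mul (mul_ne_zero two_ne_zero (pow_ne_zero _ hq0)) (prod_ne_zero' hq1 m),
    padicValNat.mul two_ne_zero (pow_ne_zero _ hq0), padicValNat_self, val_q_pow hodd,
    val_prod hq1 hodd]
  omega

theorem val_plus_aux {q : ℕ} (hq1 : 1 < q) (hodd : Odd q) (k : ℕ) :
    padicValNat 2 (2 * q ^ ((k + 1) * (k + 1 - 1)) * (q ^ (k + 1) - 1)
        * ∏ i ∈ Finset.range (k + 1 - 1), (q ^ (2 * (i + 1)) - 1))
      = 1 + padicValNat 2 (q ^ (k + 1) - 1) + (k * padicValNat 2 (q ^ 2 - 1)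
        + padicValNat 2 k.factorial) := by
  have hq0 : q ≠ 0 := by omega
  have h1 : q ^ (k + 1) - 1 ≠ 0 := one_lt_pow_sub hq1 (by omega)
  rw [Nat.add_sub_cancel,
    padicValNat.mul (mul_ne_zero (mul_ne_zero two_ne_zero (pow_ne_zero _ hq0)) h1)
      (prod_ne_zero' hq1 k),
    padicValNat.mul (mul_ne_zero two_ne_zero (pow_ne_zero _ hq0)) h1,
    padicValNat.mul two_ne_zero (pow_ne_zero _ hq0), padicValNat_self, val_q_pow hodd,
    val_prod hq1 hodd]

theorem val_plus_A {q : ℕ} (hq1 : 1 < q) (hodd : Odd q) (m : ℕ) (hm : 1 ≤ m)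
    (h : Even m ∨ q % 4 = 1) :
    padicValNat 2 (2 * q ^ (m * (m - 1)) * (q ^ m - 1)
        * ∏ i ∈ Finset.range (m - 1), (q ^ (2 * (i + 1)) - 1))
      = m * padicValNat 2 (q ^ 2 - 1) + padicValNat 2 m.factorial := by
  obtain ⟨k, rfl⟩ : ∃ k, m = k + 1 := ⟨m - 1, by omega⟩
  rw [val_plus_aux hq1 hodd k, val_factorial_succ]
  have key : padicValNat 2 (q ^ (k + 1) - 1) + 1
      = padicValNat 2 (q ^ 2 - 1) + padicValNat 2 (k + 1) := by
    rcases Nat.even_or_odd (k + 1) with he | ho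
    · obtain ⟨j, hj⟩ := he
      have hj0 : j ≠ 0 := by omega
      have hj2 : k + 1 = 2 * j := by omega
      rw [hj2, val_pow_even_sub_one hq1 hodd hj0, padicValNat.mul two_ne_zero hj0,
        padicValNat_self]
      omega
    · have hq4 : q % 4 = 1 := by
        rcases h with he | h4
        · exact absurd he (Nat.not_even_iff_odd.mpr ho)
        · exact h4
      rw [val_pow_odd_sub_one hq1 hodd ho, val_sq_sub_one hq1 hodd,
        val_of_mod_four (x := q + 1) (by omega),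
        padicValNat.eq_zero_of_not_dvd (not_two_dvd_of_odd ho)]
      omega
  have e : (k + 1) * padicValNat 2 (q ^ 2 - 1)
      = k * padicValNat 2 (q ^ 2 - 1) + padicValNat 2 (q ^ 2 - 1) := by ring
  omega

theorem val_plus_B {q : ℕ} (hq1 : 1 < q) (m : ℕ) (hm : Odd m) (h : q % 4 = 3) :
    padicValNat 2 (2 * q ^ (m * (m - 1)) * (q ^ m - 1)
        * ∏ i ∈ Finset.range (m - 1), (q ^ (2 * (i + 1)) - 1))
      = (m - 1) * padicValNat 2 (q ^ 2 - 1) + padicValNat 2 (m - 1).factorial + 2 := by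
  have hodd : Odd q := Nat.odd_iff.mpr (by omega)
  obtain ⟨k, rfl⟩ : ∃ k, m = k + 1 := by
    refine ⟨m - 1, ?_⟩
    have : m ≠ 0 := by
      rintro rfl
      exact (by decide : ¬ Odd 0) hm
    omega
  rw [val_plus_aux hq1 hodd k, val_pow_odd_sub_one hq1 hodd hm,
    val_of_mod_four (x := q - 1) (by omega), Nat.add_sub_cancel]
  omega

theorem val_minus_aux {q : ℕ} (hq1 : 1 < q) (hodd : Odd q) (n : ℕ) :
    padicValNat 2 (2 * q ^ ((n + 1) * n) * (q ^ (n + 1) + 1)
        * ∏ i ∈ Finset.range n, (q ^ (2 * (i + 1)) - 1))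
      = 1 + padicValNat 2 (q ^ (n + 1) + 1) + (n * padicValNat 2 (q ^ 2 - 1)
        + padicValNat 2 n.factorial) := by
  have hq0 : q ≠ 0 := by omega
  have h1 : q ^ (n + 1) + 1 ≠ 0 := by omega
  rw [padicValNat.mul (mul_ne_zero (mul_ne_zero two_ne_zero (pow_ne_zero _ hq0)) h1)
      (prod_ne_zero' hq1 n),
    padicValNat.mul (mul_ne_zero two_ne_zero (pow_ne_zero _ hq0)) h1,
    padicValNat.mul two_ne_zero (pow_ne_zero _ hq0), padicValNat_self, val_q_pow hodd,
    val_prod hq1 hodd]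

theorem val_minus_A {q : ℕ} (hq1 : 1 < q) (n : ℕ) (hn : Even n) (h : q % 4 = 3) :
    padicValNat 2 (2 * q ^ ((n + 1) * n) * (q ^ (n + 1) + 1)
        * ∏ i ∈ Finset.range n, (q ^ (2 * (i + 1)) - 1))
      = (n + 1) * padicValNat 2 (q ^ 2 - 1) + padicValNat 2 (n + 1).factorial := by
  have hodd : Odd q := Nat.odd_iff.mpr (by omega)
  have ho : Odd (n + 1) := hn.add_one
  rw [val_minus_aux hq1 hodd n, val_factorial_succ, val_pow_odd_add_one hq1 hodd ho,
    padicValNat.eq_zero_of_not_dvd (not_two_dvd_of_odd ho)]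
  have ha : padicValNat 2 (q ^ 2 - 1) = padicValNat 2 (q + 1) + 1 := by
    rw [val_sq_sub_one hq1 hodd, val_of_mod_four (x := q - 1) (by omega)]
  have e : (n + 1) * padicValNat 2 (q ^ 2 - 1)
      = n * padicValNat 2 (q ^ 2 - 1) + padicValNat 2 (q ^ 2 - 1) := by ring
  omega

theorem val_minus_B {q : ℕ} (hq1 : 1 < q) (hodd : Odd q) (n : ℕ) (h : Odd n ∨ q % 4 = 1) :
    padicValNat 2 (2 * q ^ ((n + 1) * n) * (q ^ (n + 1) + 1)
        * ∏ i ∈ Finset.range n, (q ^ (2 * (i + 1)) - 1))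
      = n * padicValNat 2 (q ^ 2 - 1) + padicValNat 2 n.factorial + 2 := by
  have key : padicValNat 2 (q ^ (n + 1) + 1) = 1 := by
    apply val_of_mod_four
    rcases h with ho | h4
    · obtain ⟨j, hj⟩ := ho
      have e : q ^ (n + 1) = (q ^ (j + 1)) ^ 2 := by
        rw [← pow_mul]; congr 1; omega
      have hx : Odd (q ^ (j + 1)) := hodd.pow
      have hx4 : q ^ (j + 1) % 4 = 1 ∨ q ^ (j + 1) % 4 = 3 := by
        have := Nat.odd_iff.mp hx
        omega
      rw [e]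
      rcases hx4 with h1 | h3
      · simp [Nat.add_mod, Nat.pow_mod, h1]
      · simp [Nat.add_mod, Nat.pow_mod, h3]
    · simp [Nat.add_mod, Nat.pow_mod, h4]
  rw [val_minus_aux hq1 hodd n, key]
  omega

end Cfsg.Agent.Lib.Helper68.OmegaArith
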